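import Mathlib
import Cfsg.Agent.WTI.Basic
import Cfsg.Agent.Grp.Card

/-! The projective plane of elation groups of `L₃(q)`, `q` even, in ambient form. -/

set_option autoImplicit false
set_option linter.unusedSectionVars false

namespace Cfsg.Agent.PL3

open Subgroup Cfsg.Agent.PLocal.Amb Cfsg.Agent.WTI

theorem ncard_double {α β : Type*} [Finite α] [Finite β] {S : Set α} {T : Set β}
    (R : α → β → Prop) {m n : ℕ} (hm : ∀ a ∈ S, {b | b ∈ T ∧ R a b}.ncard = m)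
    (hn : ∀ b ∈ T, {a | a ∈ S ∧ R a b}.ncard = n) : S.ncard * m = T.ncard * n := by
  classical
  rw [Set.ncard_eq_toFinset_card S, Set.ncard_eq_toFinset_card T]
  refine Finset.card_mul_eq_card_mul R (fun a ha => ?_) (fun b hb => ?_)
  · rw [← hm a (by simpa using ha), ← Set.ncard_coe_finset]
    congr 1; ext b; simp [Finset.bipartiteAbove]
  · rw [← hn b (by simpa using hb), ← Set.ncard_coe_finset]
    congr 1; ext a; simp [Finset.bipartiteBelow]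

theorem ncard_rel {α β : Type*} [Finite α] [Finite β] {S : Set α} {T : Set β}
    (R : α → β → Prop) {n : ℕ} (hm : ∀ a ∈ S, ∃! b, b ∈ T ∧ R a b)
    (hn : ∀ b ∈ T, {a | a ∈ S ∧ R a b}.ncard = n) : S.ncard = T.ncard * n := by
  rw [← ncard_double R (m := 1) (fun a ha => ?_) hn, mul_one]
  obtain ⟨b, hb, hu⟩ := hm a ha
  exact Set.ncard_eq_one.2 ⟨b, Set.eq_singleton_iff_unique_mem.2 ⟨hb, hu⟩⟩

variable {G : Type*} [Group G]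

/-- incidence -/
def I (V W : Subgroup G) : Prop := ∃ x, x ∈ V ∧ x ∈ W ∧ x ≠ 1

theorem I.symm {V W : Subgroup G} (h : I V W) : I W V := h.imp fun _ h => ⟨h.2.1, h.1, h.2.2⟩

theorem I.cj {V W : Subgroup G} (h : I V W) (g : G) : I cj(g, V) cj(g, W) := by
  obtain ⟨x, a, b, c⟩ := h
  exact ⟨_, conj_mem_cj g a, conj_mem_cj g b, by simpa using c⟩

theorem I.nrm {V W : Subgroup G} (h : I V W) {g : G} (hg : g ∈ 𝐍[V]) : I V cj(g, W) := by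
  have := h.cj g
  rwa [cj_of_mem_normalizer hg] at this

theorem I.of_nrm {V W : Subgroup G} {g : G} (h : I V cj(g, W)) (hg : g ∈ 𝐍[V]) : I V W := by
  have := h.nrm (inv_mem hg)
  rwa [cj_inv_cj] at this

theorem mem_cj_of_comm {V : Subgroup G} {g x : G} (hx : x ∈ V) (h : x * g = g * x) :
    x ∈ cj(g, V) := mem_cj.2 (by rwa [mul_assoc, h, inv_mul_cancel_left])

theorem ncard_sub (V : Subgroup G) : {x | x ∈ V ∧ x ≠ 1}.ncard = Nat.card V - 1 :=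
  Set.ncard_sdiff_singleton_of_mem (s := (V : Set G)) V.one_mem

structure Half (N : Subgroup G) (q : ℕ) (P L : Set (Subgroup G)) : Prop where
  le : ∀ V ∈ P, V ≤ N
  sq : ∀ V ∈ P, ∀ v ∈ V, v * v = 1
  card : ∀ V ∈ P, Nat.card V = q * q
  conj : ∀ V ∈ P, ∀ g ∈ N, cj(g, V) ∈ P
  tr : ∀ V ∈ P, ∀ V' ∈ P, ∃ g ∈ N, cj(g, V) = V'
  ti : ∀ V ∈ P, ∀ V' ∈ P, I V V' → V = V'
  inv : ∀ x ∈ N, x * x = 1 → x ≠ 1 → ∃ V ∈ P, x ∈ V
  inf : ∀ V ∈ P, ∀ W ∈ L, I V W → Nat.card ↥(V ⊓ W) = q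
  join : ∀ V ∈ P, ∀ V' ∈ P, ∃ W ∈ L, I V W ∧ I V' W
  uniq : ∀ V ∈ P, ∀ V' ∈ P, ∀ W ∈ L, ∀ W' ∈ L, V ≠ V' → I V W → I V' W → I V W' → I V' W' → W = W'
  norm : ∀ V ∈ P, ∀ V' ∈ P, ∀ W ∈ L, ∀ v ∈ V, v ∈ W → v ≠ 1 → (v ∈ 𝐍[V'] ↔ I V' W)

/-- `P` and `L` are the two classes of elation groups of `N ≅ L₃(q)`. -/
structure Pl (N : Subgroup G) (q : ℕ) (P L : Set (Subgroup G)) : Prop extends Half N q P L where
  d : Half N q L P
  pow : ∃ n, 1 ≤ n ∧ q = 2 ^ n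
  ne : P.Nonempty
  ord : Nat.card N * Nat.gcd 3 (q - 1) = q ^ 3 * ((q ^ 2 - 1) * (q ^ 3 - 1))
  simple : ∀ H ≤ N, N ≤ 𝐍[H] → H = ⊥ ∨ H = N

namespace Pl

variable [Finite G] {N : Subgroup G} {q : ℕ} {P L : Set (Subgroup G)}
  {V V' V₁ V₂ W W' W₁ W₂ A D H : Subgroup G} {g u v w x y z : G}

theorem symm (h : Pl N q P L) : Pl N q L P := by
  obtain ⟨V, hV⟩ := h.ne
  obtain ⟨W, hW, -⟩ := h.join V hV V hV
  exact ⟨h.d, h.toHalf, h.pow, ⟨W, hW⟩, h.ord, h.simple⟩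

theorem two_le (h : Pl N q P L) : 2 ≤ q := by
  obtain ⟨n, hn, rfl⟩ := h.pow
  exact Nat.le_self_pow (by omega) 2

theorem even (h : Pl N q P L) : Even q := by
  obtain ⟨n, hn, rfl⟩ := h.pow
  exact (Nat.even_pow' (by omega)).2 even_two

theorem pg (h : Pl N q P L) (hV : V ∈ P) : IsPGroup 2 V := isPGroup_of_sq (h.sq V hV)

theorem comm (h : Pl N q P L) (hV : V ∈ P) (hx : x ∈ V) (hy : y ∈ V) : x * y = y * x :=
  comm_of_sq (h.sq V hV) hx hy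

theorem inv_eq (h : Pl N q P L) (hV : V ∈ P) (hx : x ∈ V) : x⁻¹ = x :=
  inv_eq_of_mul_eq_one_right (h.sq V hV x hx)

theorem ne_bot (h : Pl N q P L) (hV : V ∈ P) : V ≠ ⊥ := fun e => by
  have := h.card V hV
  have := h.two_le
  rw [e, card_bot] at *
  nlinarith

theorem refl (h : Pl N q P L) (hV : V ∈ P) : I V V := by
  obtain ⟨x, hx, h1⟩ := (V.bot_or_exists_ne_one).resolve_left (h.ne_bot hV)
  exact ⟨x, hx, hx, h1⟩

theorem notMem (h : Pl N q P L) (hV : V ∈ P) : V ∉ L := fun hL => by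
  have := h.inf V hV V hL (h.refl hV)
  rw [inf_idem, h.card V hV] at this
  have := h.two_le
  nlinarith

theorem not_le (h : Pl N q P L) (hV : V ∈ P) (hW : W ∈ L) : ¬ V ≤ W := fun e =>
  h.notMem hV (eq_of_le_of_card_ge e (by rw [h.card V hV, h.d.card W hW]) ▸ hW)

theorem centre (h : Pl N q P L) (hW : W ∈ L) (hw : w ∈ W) (h1 : w ≠ 1) : ∃ V ∈ P, w ∈ V :=
  h.inv w (h.d.le W hW hw) (h.d.sq W hW w hw) h1

theorem le_norm (h : Pl N q P L) (hV : V ∈ P) (hW : W ∈ L) (i : I V W) : W ≤ 𝐍[V] := fun w hw => by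
  by_cases h1 : w = 1
  · exact h1 ▸ one_mem _
  obtain ⟨V', hV', hw'⟩ := h.centre hW hw h1
  exact (h.norm V' hV' V hV W hW w hw' hw h1).2 i

theorem norm_of_comm (h : Pl N q P L) (hV : V ∈ P) (hg : cj(g, V) ∈ P) (hx : x ∈ V) (h1 : x ≠ 1)
    (e : x * g = g * x) : g ∈ 𝐍[V] :=
  cj_eq_iff.1 (h.ti _ hg V hV ⟨x, mem_cj_of_comm hx e, hx, h1⟩)

theorem card_sup (h : Pl N q P L) (hV : V ∈ P) (hW : W ∈ L) (i : I V W) :
    Nat.card ↥(V ⊔ W) = q ^ 3 := by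
  have e := Grp.card_sup_mul_card_inf_of_le_normalizer (h.symm.le_norm hW hV i.symm)
  rw [h.inf V hV W hW i, h.card V hV, h.d.card W hW] at e
  exact Nat.eq_of_mul_eq_mul_right (by have := h.two_le; omega) (e.trans (by ring))

theorem pg_sup (h : Pl N q P L) (hV : V ∈ P) (hW : W ∈ L) (i : I V W) : IsPGroup 2 ↥(V ⊔ W) :=
  isPGroup_sup (h.pg hV) (h.symm.pg hW) (h.symm.le_norm hW hV i.symm)

theorem isSyl (h : Pl N q P L) (hV : V ∈ P) (hW : W ∈ L) (i : I V W) : IsSyl 2 (V ⊔ W) N := by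
  have hle := sup_le (h.le V hV) (h.d.le W hW)
  refine isSyl_of_not_dvd_relIndex (h.pg_sup hV hW i) hle fun e => ?_
  have e1 := h.ord
  have q2 := h.two_le
  rw [← Grp.card_mul_relIndex hle, h.card_sup hV hW i, mul_assoc] at e1
  have e2 := Nat.eq_of_mul_eq_mul_left (by positivity) e1
  have o : ∀ k, k ≠ 0 → ¬ 2 ∣ q ^ k - 1 := fun k hk e => by
    have := ((Nat.even_pow' hk).2 h.even).two_dvd
    have : 0 < q ^ k := by positivity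
    omega
  exact ((Nat.Prime.dvd_mul Nat.prime_two).1 (e2 ▸ e.mul_right _)).elim (o 2 (by omega)) (o 3 (by omega))

theorem mem_sup (h : Pl N q P L) (hV : V ∈ P) (hW : W ∈ L) (i : I V W) :
    u ∈ V ⊔ W ↔ ∃ v ∈ V, ∃ w ∈ W, u = v * w :=
  mem_sup_of_le_normalizer_left (h.le_norm hV hW i)

theorem sup_le_norm (h : Pl N q P L) (hV : V ∈ P) (hW : W ∈ L) (i : I V W) : V ⊔ W ≤ 𝐍[V] :=
  sup_le le_normalizer (h.le_norm hV hW i)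

theorem sup_le_norm' (h : Pl N q P L) (hV : V ∈ P) (hW : W ∈ L) (i : I V W) : V ⊔ W ≤ 𝐍[W] :=
  sup_le (h.symm.le_norm hW hV i.symm) le_normalizer

theorem ncard_I (h : Pl N q P L) (hV : V ∈ P) : {W | W ∈ L ∧ I V W}.ncard = q + 1 := by
  have e := ncard_rel (S := {x | x ∈ V ∧ x ≠ 1}) (T := {W | W ∈ L ∧ I V W}) (fun x W => x ∈ W)
    (n := q - 1) (fun x hx => ?_) fun W hW => ?_
  · rw [ncard_sub, h.card V hV] at e
    obtain ⟨r, rfl⟩ := Nat.exists_eq_add_of_le' h.two_le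
    rw [show (r + 2) * (r + 2) - 1 = (r + 2 + 1) * (r + 2 - 1) by
      rw [show (r + 2) * (r + 2) = (r + 2 + 1) * (r + 1) + 1 by ring]; rfl] at e
    exact (Nat.eq_of_mul_eq_mul_right (by omega) e).symm
  · obtain ⟨W, hW, hx'⟩ := h.symm.centre hV hx.1 hx.2
    exact ⟨W, ⟨⟨hW, x, hx.1, hx', hx.2⟩, hx'⟩, fun W' h' => h.d.ti _ h'.1.1 _ hW ⟨x, h'.2, hx', hx.2⟩⟩
  · rw [← h.inf V hV W hW.1 hW.2, ← ncard_sub]
    congr 1; ext x; simp [and_right_comm]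

theorem three (h : Pl N q P L) (hV : V ∈ P) (W₁ W₂ : Subgroup G) :
    ∃ W ∈ L, I V W ∧ W ≠ W₁ ∧ W ≠ W₂ := by
  by_contra hc
  push Not at hc
  have e := Set.ncard_le_ncard (s := {W | W ∈ L ∧ I V W}) (t := {W₁, W₂}) fun W hW =>
    or_iff_not_imp_left.2 (hc W hW.1 hW.2)
  have := Set.ncard_insert_le W₁ {W₂}
  rw [h.ncard_I hV, Set.ncard_singleton] at *
  have := h.two_le
  omega

theorem ncard_I' (h : Pl N q P L) (hV : V ∈ P) (hW : W ∈ L) (i : I V W) :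
    {W' | (W' ∈ L ∧ I V W') ∧ W' ≠ W}.ncard = q :=
  (Set.ncard_sdiff_singleton_of_mem (s := {W | W ∈ L ∧ I V W}) ⟨hW, i⟩).trans (by
    rw [h.ncard_I hV]; rfl)

theorem ncard_P (h : Pl N q P L) : P.ncard = q * q + q + 1 := by
  obtain ⟨V, hV⟩ := h.ne
  have e := ncard_rel (S := P \ {V}) (T := {W | W ∈ L ∧ I V W}) (fun V' W => I V' W)
    (n := q) (fun V' h' => ?_) fun W hW => ?_
  · rw [← Set.ncard_sdiff_singleton_add_one hV, e, h.ncard_I hV]; ring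
  · obtain ⟨W, hW, i, i'⟩ := h.join V hV V' h'.1
    exact ⟨W, ⟨⟨hW, i⟩, i'⟩, fun W' j =>
      h.uniq V' h'.1 V hV _ j.1.1 _ hW h'.2 j.2 j.1.2 i' i⟩
  · rw [← h.symm.ncard_I' hW.1 hV hW.2.symm]
    congr 1; ext V'
    exact ⟨fun a => ⟨⟨a.1.1, a.2.symm⟩, a.1.2⟩, fun a => ⟨⟨a.1.1, a.2⟩, a.1.2.symm⟩⟩

/-- an elation with axis `W` and centre `≠ V` fixes no other line through `V` -/
theorem eq_of_norm (h : Pl N q P L) (hV : V ∈ P) (hW : W ∈ L) (i : I V W) (hw : w ∈ W) (h1 : w ∉ V)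
    (hW₁ : W₁ ∈ L) (i₁ : I V W₁) (hn : w ∈ 𝐍[W₁]) : W₁ = W := by
  have w1 : w ≠ 1 := fun e => h1 (e ▸ one_mem V)
  obtain ⟨V', hV', hw'⟩ := h.centre hW hw w1
  exact h.uniq V hV V' hV' _ hW₁ _ hW (fun e => h1 (e ▸ hw')) i₁
    ((h.d.norm W hW W₁ hW₁ V' hV' w hw hw' w1).1 hn).symm i ⟨w, hw', hw, w1⟩

theorem nc (h : Pl N q P L) (hV : V ∈ P) (hW : W ∈ L) (i : I V W) (hv : v ∈ V) (hw : w ∈ W)
    (e : v * w = w * v) : v ∈ W ∨ w ∈ V := by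
  by_contra hc
  push Not at hc
  have v1 : v ≠ 1 := fun e => hc.1 (e ▸ one_mem W)
  obtain ⟨W₁, hW₁, hv'⟩ := h.symm.centre hV hv v1
  exact hc.1 (h.eq_of_norm hV hW i hw hc.2 hW₁ ⟨v, hv, hv', v1⟩ (h.symm.norm_of_comm hW₁
    (h.d.conj _ hW₁ w (h.d.le W hW hw)) hv' v1 e) ▸ hv')

theorem inv_sup (h : Pl N q P L) (hV : V ∈ P) (hW : W ∈ L) (i : I V W) (hu : u ∈ V ⊔ W)
    (e : u * u = 1) : u ∈ V ∨ u ∈ W := by
  obtain ⟨v, hv, w, hw, rfl⟩ := (h.mem_sup hV hW i).1 hu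
  refine (h.nc hV hW i hv hw ?_).symm.imp (mul_mem hv) fun a => mul_mem a hw
  rw [← inv_eq_of_mul_eq_one_right e, mul_inv_rev, h.inv_eq hV hv, h.symm.inv_eq hW hw]

theorem le_or (h : Pl N q P L) (hV : V ∈ P) (hW : W ∈ L) (i : I V W) (hA : A ≤ V ⊔ W)
    (sq : ∀ x ∈ A, x * x = 1) : A ≤ V ∨ A ≤ W := by
  by_contra hc
  simp only [not_or, SetLike.not_le_iff_exists] at hc
  obtain ⟨⟨w, a, b⟩, v, c, d⟩ := hc
  exact (h.nc hV hW i ((h.inv_sup hV hW i (hA c) (sq v c)).resolve_right d)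
    ((h.inv_sup hV hW i (hA a) (sq w a)).resolve_left b) (comm_of_sq sq c a)).elim d b

theorem eq_or (h : Pl N q P L) (hV : V ∈ P) (hW : W ∈ L) (i : I V W) (hA : A ≤ V ⊔ W)
    (sq : ∀ x ∈ A, x * x = 1) (c : Nat.card A = q * q) : A = V ∨ A = W :=
  (h.le_or hV hW i hA sq).imp (fun e => eq_of_le_of_card_ge e (by rw [c, h.card V hV]))
    fun e => eq_of_le_of_card_ge e (by rw [c, h.d.card W hW])

theorem eq_of_le (h : Pl N q P L) (hV : V ∈ P) (hW : W ∈ L) (i : I V W) (hV' : V' ∈ P)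
    (hA : V' ≤ V ⊔ W) : V' = V :=
  (h.eq_or hV hW i hA (h.sq V' hV') (h.card V' hV')).resolve_right fun e => h.notMem hV' (e ▸ hW)

theorem flag (h : Pl N q P L) {T : Subgroup G} (hT : IsSyl 2 T N) :
    ∃ V ∈ P, ∃ W ∈ L, I V W ∧ T = V ⊔ W := by
  obtain ⟨V, hV⟩ := h.ne
  obtain ⟨W, hW, i, -⟩ := h.join V hV V hV
  obtain ⟨g, hg, rfl⟩ := hT.exists_cj_eq (h.isSyl hV hW i)
  exact ⟨_, h.conj V hV g hg, _, h.d.conj W hW g hg, i.cj g, cj_sup _ _ _⟩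

theorem mem_or (h : Pl N q P L) (hA : A ≤ N) (sq : ∀ x ∈ A, x * x = 1) (c : Nat.card A = q * q) :
    A ∈ P ∨ A ∈ L := by
  obtain ⟨T, hT, hAT⟩ := exists_isSyl_ge (isPGroup_of_sq sq) hA
  obtain ⟨V, hV, W, hW, i, rfl⟩ := h.flag hT
  rcases h.eq_or hV hW i hAT sq c with rfl | rfl
  exacts [Or.inl hV, Or.inr hW]

theorem cj_or (h : Pl N q P L) (hV : V ∈ P) (hg : g ∈ 𝐍[N]) : cj(g, V) ∈ P ∨ cj(g, V) ∈ L :=
  h.mem_or (cj_le_of_mem_normalizer (h.le V hV) hg) (by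
    rintro _ ⟨x, hx, rfl⟩; rw [← map_mul, h.sq V hV x hx, map_one]) ((card_cj _ _).trans (h.card V hV))

theorem cj_tr (h : Pl N q P L) (hV : V ∈ P) (hV' : V' ∈ P) (hg : g ∈ 𝐍[N]) :
    ∃ n ∈ N, cj(g, V') = cj(n, cj(g, V)) := by
  obtain ⟨n, hn, rfl⟩ := h.tr V hV V' hV'
  exact ⟨_, conj_mem_of_mem_normalizer hg hn, by rw [← cj_mul, ← cj_mul, inv_mul_cancel_right]⟩

theorem presP (h : Pl N q P L) (hg : g ∈ 𝐍[N]) (hV : V ∈ P) (e : cj(g, V) ∈ P) (hV' : V' ∈ P) :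
    cj(g, V') ∈ P := by
  obtain ⟨n, hn, e'⟩ := h.cj_tr hV hV' hg
  exact e' ▸ h.conj _ e n hn

theorem presL (h : Pl N q P L) (hg : g ∈ 𝐍[N]) (hV : V ∈ P) (e : cj(g, V) ∈ P) (hW : W ∈ L) :
    cj(g, W) ∈ L := by
  refine (h.symm.cj_or hW hg).resolve_right fun e' => ?_
  obtain ⟨V', hV', i, -⟩ := h.d.join W hW W hW
  exact h.notMem hV' (cj_inj.1 (h.ti _ e' _ (h.presP hg hV e hV') (i.cj g)) ▸ hW)

theorem swapP (h : Pl N q P L) (hg : g ∈ 𝐍[N]) (hV : V ∈ P) (e : cj(g, V) ∈ L) (hV' : V' ∈ P) :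
    cj(g, V') ∈ L :=
  (h.cj_or hV' hg).resolve_left fun e' => h.notMem (h.presP hg hV' e' hV) e

theorem swapL (h : Pl N q P L) (hg : g ∈ 𝐍[N]) (hV : V ∈ P) (e : cj(g, V) ∈ L) (hW : W ∈ L) :
    cj(g, W) ∈ P :=
  (h.symm.cj_or hW hg).resolve_left fun e' => h.notMem (h.symm.presL hg hW e' hV) e

theorem nP (h : Pl N q P L) (hg : g ∈ 𝐍[N]) (hV : V ∈ P) (e : g ∈ 𝐍[V]) (hV' : V' ∈ P) :
    cj(g, V') ∈ P := h.presP hg hV ((cj_of_mem_normalizer e).symm ▸ hV) hV'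

theorem nL (h : Pl N q P L) (hg : g ∈ 𝐍[N]) (hV : V ∈ P) (e : g ∈ 𝐍[V]) (hW : W ∈ L) :
    cj(g, W) ∈ L := h.presL hg hV ((cj_of_mem_normalizer e).symm ▸ hV) hW

/-- `V' ⊓ W` is regular on the lines `≠ W` through `V`. -/
theorem reg (h : Pl N q P L) (hV : V ∈ P) (hV' : V' ∈ P) (ne : V' ≠ V) (hW : W ∈ L) (i : I V W)
    (i' : I V' W) (hW₁ : W₁ ∈ L) (i₁ : I V W₁) (n₁ : W₁ ≠ W) (hW₂ : W₂ ∈ L) (i₂ : I V W₂)
    (n₂ : W₂ ≠ W) : ∃ w ∈ V' ⊓ W, cj(w, W₁) = W₂ := by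
  have hn := h.le_norm hV hW i
  refine (Set.eq_of_subset_of_ncard_le (s := (fun w => cj(w, W₁)) '' (V' ⊓ W : Subgroup G))
    (t := {W' | (W' ∈ L ∧ I V W') ∧ W' ≠ W}) ?_ ?_).ge ⟨⟨hW₂, i₂⟩, n₂⟩
  · rintro _ ⟨w, hw, rfl⟩
    exact ⟨⟨h.d.conj _ hW₁ w (h.d.le W hW hw.2), i₁.nrm (hn hw.2)⟩, fun e =>
      n₁ (cj_inj.1 (e.trans (cj_of_mem hw.2).symm))⟩
  · rw [h.ncard_I' hV hW i, Set.InjOn.ncard_image, ← h.inf V' hV' W hW i']
    · rfl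
    intro a ha b hb e
    by_contra hc
    have m := mul_mem (inv_mem hb) ha
    refine n₁ (h.eq_of_norm hV hW i m.2 (fun e => ne (h.ti _ hV' _ hV ⟨_, m.1, e, fun e =>
      hc (inv_mul_eq_one.1 e).symm⟩)) hW₁ i₁ (cj_eq_iff.1 ?_))
    rw [cj_mul, show cj(a, W₁) = cj(b, W₁) from e, cj_inv_cj]

theorem reg' (h : Pl N q P L) (hV : V ∈ P) (hW : W ∈ L) (i : I V W)
    (hW₁ : W₁ ∈ L) (i₁ : I V W₁) (n₁ : W₁ ≠ W) (hW₂ : W₂ ∈ L) (i₂ : I V W₂)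
    (n₂ : W₂ ≠ W) : ∃ w ∈ W, cj(w, W₁) = W₂ := by
  obtain ⟨V', hV', i', ne, -⟩ := h.symm.three hW V V
  obtain ⟨w, hw, e⟩ := h.reg hV hV' ne hW i i'.symm hW₁ i₁ n₁ hW₂ i₂ n₂
  exact ⟨w, hw.2, e⟩

theorem gen2 (h : Pl N q P L) (hV : V ∈ P) (hV' : V' ∈ P) (ne : V ≠ V') (hW : W ∈ L) (i : I V W)
    (i' : I V' W) (h1 : V ⊓ W ≤ H) (h2 : V' ⊓ W ≤ H) : W ≤ H := by
  have e := Grp.card_sup_mul_card_inf_of_le_normalizer (H := V ⊓ W) (N := V' ⊓ W)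
    (inf_le_right.trans (le_normalizer_inf (h.le_norm hV' hW i') le_normalizer))
  rw [(eq_bot_iff_forall (V ⊓ W ⊓ (V' ⊓ W))).2 fun x hx => by_contra fun x1 =>
    ne (h.ti V hV V' hV' ⟨x, hx.1.1, hx.2.1, x1⟩), card_bot, h.inf V hV W hW i,
    h.inf V' hV' W hW i', mul_one, ← h.d.card W hW] at e
  exact (eq_of_le_of_card_ge (sup_le inf_le_right inf_le_right) e.ge).ge.trans (sup_le h1 h2)

theorem cm_mem (h : Pl N q P L) (hV : V ∈ P) (hW : W ∈ L) (i : I V W) (hv : v ∈ V)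
    (hu : u ∈ V ⊔ W) : cm(v, u) ∈ V ⊓ W := by
  obtain ⟨v', hv', w, hw, rfl⟩ := (h.mem_sup hV hW i).1 hu
  have a := conj_mem_of_mem_normalizer (h.le_norm hV hW i hw) (inv_mem hv)
  rw [show cm(v, (v' * w)) = v * (v' * (w * v⁻¹ * w⁻¹)) * v'⁻¹ by group, h.comm hV hv' a,
    ← mul_assoc, mul_inv_cancel_right]
  refine ⟨mul_mem hv a, ?_⟩
  rw [← mul_assoc, ← mul_assoc]
  exact W.mul_mem (conj_mem_of_mem_normalizer (h.symm.le_norm hW hV i.symm hv) hw) (inv_mem hw)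

theorem mem_of_comm (h : Pl N q P L) (hV : V ∈ P) (hW : W ∈ L) (i : I V W) (hv : v ∈ V)
    (hu : u ∈ V ⊔ W) (h1 : u ∉ V) (e : v * u = u * v) : v ∈ W := by
  obtain ⟨v', hv', w, hw, rfl⟩ := (h.mem_sup hV hW i).1 hu
  refine (h.nc hV hW i hv hw ?_).resolve_right fun a => h1 (mul_mem hv' a)
  rwa [← mul_assoc, h.comm hV hv hv', mul_assoc, mul_assoc, mul_right_inj] at e

theorem exists_cm (h : Pl N q P L) (hV : V ∈ P) (hW : W ∈ L) (i : I V W)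
    (hu : u ∈ V ⊔ W) (h1 : u ∉ V) (hz : z ∈ V ⊓ W) : ∃ v ∈ V, cm(v, u) = z := by
  obtain ⟨W', hW', i', ne, -⟩ := h.three hV W W
  refine ((Set.eq_of_subset_of_ncard_le (s := (fun v => cm(v, u)) '' (V ⊓ W' : Subgroup G))
    (t := (V ⊓ W : Subgroup G)) (by rintro _ ⟨v, hv, rfl⟩; exact h.cm_mem hV hW i hv.1 hu)
    (((h.inf V hV W hW i).trans (h.inf V hV W' hW' i').symm).le.trans
    (Set.InjOn.ncard_image fun a ha b hb e => ?_).ge)).ge hz).imp fun v hv => ⟨hv.1.1, hv.2⟩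
  by_contra hc
  have m := mul_mem (inv_mem hb) ha
  refine ne (h.d.ti _ hW' _ hW ⟨_, m.2, h.mem_of_comm hV hW i m.1 hu h1 ?_, fun e =>
    hc (inv_mul_eq_one.1 e).symm⟩)
  have e' : a * u * a⁻¹ = b * u * b⁻¹ := mul_right_cancel e
  calc b⁻¹ * a * u = b⁻¹ * (a * u * a⁻¹) * a := by group
    _ = _ := by rw [e']; group

theorem exists_cm' (h : Pl N q P L) (hV : V ∈ P) (hW : W ∈ L) (i : I V W)
    (hu : u ∈ V ⊔ W) (h1 : u ∉ V ⊓ W) (hz : z ∈ V ⊓ W) : ∃ x ∈ V ⊔ W, cm(x, u) = z := by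
  by_cases a : u ∈ V
  · obtain ⟨w, hw, e⟩ := h.symm.exists_cm hW hV i.symm (sup_comm V W ▸ hu) (fun b => h1 ⟨a, b⟩)
      ⟨hz.2, hz.1⟩
    exact ⟨w, mem_sup_right hw, e⟩
  · obtain ⟨v, hv, e⟩ := h.exists_cm hV hW i hu a hz
    exact ⟨v, mem_sup_left hv, e⟩

omit [Finite G] in
theorem _root_.Cfsg.Agent.PL3.cm_mem_of_norm (hx : x ∈ 𝐍[D]) (hu : u ∈ D) : cm(x, u) ∈ D :=
  mul_mem (conj_mem_of_mem_normalizer hx hu) (inv_mem hu)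

omit [Finite G] in
theorem _root_.Cfsg.Agent.PL3.cm_mem_of_norm' (hx : x ∈ D) (hu : u ∈ 𝐍[D]) : cm(x, u) ∈ D := by
  rw [mul_assoc, mul_assoc, ← mul_assoc u]
  exact mul_mem hx (conj_mem_of_mem_normalizer hu (inv_mem hx))

theorem inf_le (h : Pl N q P L) (hV : V ∈ P) (hW : W ∈ L) (i : I V W) (hD : V ⊔ W ≤ 𝐍[D])
    (hu : u ∈ V ⊔ W) (h1 : u ∉ V ⊓ W) (h2 : u ∈ D) : V ⊓ W ≤ D := fun z hz => by
  obtain ⟨x, hx, rfl⟩ := h.exists_cm' hV hW i hu h1 hz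
  exact cm_mem_of_norm (hD hx) h2

theorem center (h : Pl N q P L) (hV : V ∈ P) (hW : W ∈ L) (i : I V W) :
    (V ⊔ W) ⊓ 𝐂[V ⊔ W] = V ⊓ W := by
  refine le_antisymm (fun u hu => by_contra fun h1 => ?_) (le_inf (inf_le_left.trans le_sup_left) ?_)
  · obtain ⟨z, a, b, c⟩ := i
    obtain ⟨x, hx, rfl⟩ := h.exists_cm' hV hW ⟨z, a, b, c⟩ hu.1 h1 ⟨a, b⟩
    exact c (by rw [hu.2 x hx]; group)
  · rw [centralizer_sup]
    exact fun z hz => ⟨fun v hv => h.comm hV hv hz.1, fun w hw => h.symm.comm hW hw hz.2⟩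

theorem irr (h : Pl N q P L) (hV : V ∈ P) (hD : D ≤ V) (hn : ∀ W ∈ L, I V W → W ≤ 𝐍[D]) :
    D = ⊥ ∨ D = V := by
  refine D.bot_or_exists_ne_one.imp_right fun ⟨d, hd, d1⟩ => le_antisymm hD ?_
  obtain ⟨W, hW, hd'⟩ := h.symm.centre hV (hD hd) d1
  have key : ∀ W' ∈ L, I V W' → W' ≠ W → W' ⊓ V ≤ D := fun W' hW' i ne z hz => by
    obtain ⟨x, hx, rfl⟩ := h.symm.exists_cm hW' hV i.symm (mem_sup_right (hD hd))
      (fun a => ne (h.d.ti _ hW' _ hW ⟨d, a, hd', d1⟩)) hz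
    exact cm_mem_of_norm (hn W' hW' i hx) hd
  obtain ⟨W₁, hW₁, i₁, n₁, -⟩ := h.three hV W W
  obtain ⟨W₂, hW₂, i₂, n₂, n⟩ := h.three hV W W₁
  exact h.symm.gen2 hW₂ hW₁ n hV i₂.symm i₁.symm (key _ hW₂ i₂ n₂) (key _ hW₁ i₁ n₁)

theorem cent (h : Pl N q P L) (hx : x ∈ N) (hc : x ∈ 𝐂[N]) : x = 1 := by
  rcases h.simple (N ⊓ 𝐂[N]) inf_le_left (le_normalizer_inf le_normalizer
    (le_normalizer_centralizer le_normalizer)) with e | e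
  · exact (eq_bot_iff_forall _).1 e x ⟨hx, hc⟩
  obtain ⟨V, hV⟩ := h.ne
  obtain ⟨W, hW, i, -⟩ := h.join V hV V hV
  refine (h.not_le hV hW fun v hv => ((h.center hV hW i).le ⟨mem_sup_left hv, ?_⟩).2).elim
  exact centralizer_anti (h.isSyl hV hW i).le (e.ge (h.le V hV hv)).2

end Pl

end Cfsg.Agent.PL3
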