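import Mathlib
import Cfsg.Agent.PL3.Defs

/-! Automorphisms and overgroups of Sylow subgroups in the plane of elation groups. -/

set_option autoImplicit false
set_option linter.unusedSectionVars false

namespace Cfsg.Agent.PL3

open Subgroup Cfsg Cfsg.Agent.PLocal.Amb Cfsg.Agent.WTI

variable {G : Type*} [Group G] [Finite G]

theorem card_image {X : Type*} [Finite X] (H K : Subgroup G) (f : G → X)
    (hf : ∀ a b, f a = f b ↔ a⁻¹ * b ∈ K) :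
    Nat.card H = (f '' H).ncard * Nat.card ↥(H ⊓ K) := by
  refine ncard_rel (S := (H : Set G)) (fun g y => y = f g)
    (fun a ha => ⟨f a, ⟨⟨a, ha, rfl⟩, rfl⟩, fun _ h => h.2⟩) ?_
  rintro _ ⟨a, ha, rfl⟩
  exact Set.ncard_congr (t := ((H ⊓ K : Subgroup G) : Set G)) (fun b _ => a⁻¹ * b)
    (fun b hb => ⟨H.mul_mem (H.inv_mem ha) hb.1, (hf a b).1 hb.2⟩) (fun _ _ _ _ e => mul_left_cancel e)
    fun b hb => ⟨a * b, ⟨H.mul_mem ha hb.1, (hf _ _).2 (by simpa using hb.2)⟩, by simp⟩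

theorem cent_of_two {A : Subgroup G} {g : G} (h : Nat.card A = 2) (hg : g ∈ 𝐍[A]) : g ∈ 𝐂[A] := by
  intro a ha
  obtain ⟨y, -, hy⟩ := (Nat.card_eq_two_iff' (1 : A)).1 h
  by_cases a1 : a = 1
  · simp [a1]
  have e := (hy ⟨_, conj_mem_of_mem_normalizer hg ha⟩ fun e => a1 (by
    simpa using congrArg Subtype.val e)).trans (hy ⟨a, ha⟩ fun e => a1 (congrArg Subtype.val e)).symm
  exact (mul_inv_eq_iff_eq_mul.1 (congrArg Subtype.val e)).symm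

theorem norm_of_cent {N X : Subgroup G} {c : G} (hc : c ∈ 𝐂[N]) (h : X ≤ N) : c ∈ 𝐍[X] :=
  centralizer_le_normalizer' X (centralizer_anti h hc)

theorem cj_comm {X : Subgroup G} {g v : G} (hg : g ∈ 𝐍[X]) (e : v * g = g * v) : g ∈ 𝐍[cj(v, X)] :=
  cj_eq_iff.1 (by rw [← cj_mul, ← e, cj_mul, cj_of_mem_normalizer hg])

theorem cj_ne {X Y : Subgroup G} {g : G} (hg : g ∈ 𝐍[Y]) (ne : X ≠ Y) : cj(g, X) ≠ Y := fun e =>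
  ne (cj_inj.1 (e.trans (cj_of_mem_normalizer hg).symm))

namespace Pl

variable {N : Subgroup G} {q : ℕ} {P L : Set (Subgroup G)}
  {V V' V₁ V₂ W W' W₁ W₂ A D H : Subgroup G} {g u v w x y z : G}

theorem eq_top (h : Pl N q P L) (hH : H ≤ N) (hP : ∀ V ∈ P, V ≤ H) : H = N := by
  obtain ⟨V, hV⟩ := h.ne
  refine le_antisymm hH (((h.simple (sSup P) (sSup_le h.le) (le_normalizer_iff_cj.2 fun g hg =>
    cj_le_iff.2 (sSup_le fun V hV => cj_le_iff.1 (le_sSup (h.conj V hV g hg))))).resolve_left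
    fun e => h.ne_bot hV (le_bot_iff.1 (e ▸ le_sSup hV))).ge.trans (sSup_le hP))

theorem triv (h : Pl N q P L) (hg : g ∈ 𝐍[N]) (hP : ∀ V ∈ P, g ∈ 𝐍[V]) : g ∈ 𝐂[N] := by
  have m : ∀ x, x ∈ N ⊓ ⨅ V ∈ P, 𝐍[V] ↔ x ∈ N ∧ ∀ V ∈ P, x ∈ 𝐍[V] := fun x => by simp [mem_iInf]
  have c : ∀ n ∈ N, ∀ x, (∀ V ∈ P, x ∈ 𝐍[V]) → ∀ V ∈ P, n * x * n⁻¹ ∈ 𝐍[V] := fun n hn x hx V hV =>
    cj_eq_iff.1 (by rw [cj_mul, cj_mul, cj_of_mem_normalizer (hx _ (h.conj V hV _ (inv_mem hn))), cj_cj_inv])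
  rcases h.simple (N ⊓ ⨅ V ∈ P, 𝐍[V]) inf_le_left (le_normalizer_iff_cj.2 fun n hn =>
    cj_le_iff_forall.2 fun x hx => (m _).2 ⟨mul_mem (mul_mem hn hx.1) (inv_mem hn),
      c n hn x ((m x).1 hx).2⟩) with e | e
  · intro n hn
    have := (eq_bot_iff_forall _).1 e _ ((m cm(n, g)).2 ⟨cm_mem_of_norm' hn hg, fun V hV =>
      mul_mem (c n hn g hP V hV) (inv_mem (hP V hV))⟩)
    rwa [mul_inv_eq_one, mul_inv_eq_iff_eq_mul] at this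
  obtain ⟨V, hV⟩ := h.ne
  obtain ⟨W, hW, -⟩ := h.join V hV V hV
  exact ((h.simple V (h.le V hV) fun n hn => ((m n).1 (e.ge hn)).2 V hV).elim (h.ne_bot hV)
    fun e => h.symm.not_le hW hV (e ▸ h.d.le W hW)).elim

theorem norm_join (h : Pl N q P L) (hg : g ∈ 𝐍[N]) (hV : V ∈ P) (hV' : V' ∈ P) (ne : V ≠ V')
    (hW : W ∈ L) (i : I V W) (i' : I V' W) (e : g ∈ 𝐍[V]) (e' : g ∈ 𝐍[V']) : g ∈ 𝐍[W] :=
  cj_eq_iff.1 (h.uniq V hV V' hV' _ (h.nL hg hV e hW) W hW ne (i.nrm e) (i'.nrm e') i i')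

theorem line_of_cent (h : Pl N q P L) (hg : g ∈ 𝐍[N]) (hV : V ∈ P) (hc : g ∈ 𝐂[V]) (hW : W ∈ L)
    (i : I V W) : g ∈ 𝐍[W] := by
  obtain ⟨x, a, b, c⟩ := i
  exact h.symm.norm_of_comm hW (h.nL hg hV (centralizer_le_normalizer' V hc) hW) b c (hc x a)

theorem lemP (h : Pl N q P L) (hg : g ∈ 𝐍[N]) (hV : V ∈ P) (hc : g ∈ 𝐂[V]) :
    ∃ v ∈ V, v * g ∈ 𝐂[N] := by
  obtain ⟨W₁, hW₁, i₁, -⟩ := h.three hV V V
  obtain ⟨W₂, hW₂, i₂, n, -⟩ := h.three hV W₁ W₁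
  obtain ⟨V₁, hV₁, j₁, n₁, -⟩ := h.symm.three hW₁ V V
  obtain ⟨V₂, hV₂, j₂, n₂, -⟩ := h.symm.three hW₂ V V
  have nN : ∀ v ∈ V, v ∈ 𝐍[N] := fun v hv => le_normalizer (h.le V hV hv)
  have cV : ∀ v ∈ V, v ∈ 𝐂[V] := fun v hv x hx => h.comm hV hx hv
  have step : ∀ {g W₁ W₂ V₁}, g ∈ 𝐍[N] → g ∈ 𝐂[V] → W₁ ∈ L → I V W₁ → W₂ ∈ L → I V W₂ → W₂ ≠ W₁ →
      V₁ ∈ P → I W₁ V₁ → V₁ ≠ V → ∃ v ∈ W₂ ⊓ V, v * g ∈ 𝐍[V₁] := by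
    intro g W₁ W₂ V₁ hg hc hW₁ i₁ hW₂ i₂ n hV₁ j₁ n₁
    have hn := centralizer_le_normalizer' V hc
    obtain ⟨v, hv, e⟩ := h.symm.reg hW₁ hW₂ n hV i₁.symm i₂.symm (h.nP hg hV hn hV₁)
      (j₁.nrm (h.line_of_cent hg hV hc hW₁ i₁)) (cj_ne hn n₁) hV₁ j₁ n₁
    exact ⟨v, hv, cj_eq_iff.1 (by rw [cj_mul, e])⟩
  obtain ⟨v₁, a₁, b₁⟩ := step hg hc hW₁ i₁ hW₂ i₂ n hV₁ j₁ n₁
  have g1 := mul_mem (nN _ a₁.2) hg
  have c1 := mul_mem (cV _ a₁.2) hc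
  obtain ⟨v₂, a₂, b₂⟩ := step g1 c1 hW₂ i₂ hW₁ i₁ n.symm hV₂ j₂ n₂
  replace b₁ := mul_mem (h.le_norm hV₁ hW₁ j₁.symm a₂.1) b₁
  replace g1 := mul_mem (nN _ a₂.2) g1
  replace c1 := mul_mem (cV _ a₂.2) c1
  refine ⟨v₂ * v₁, mul_mem a₂.2 a₁.2, mul_assoc v₂ v₁ g ▸ h.triv g1 fun X hX => ?_⟩
  generalize v₂ * (v₁ * g) = k at *
  have on : ∀ {W₁ V₁ X}, W₁ ∈ L → I V W₁ → V₁ ∈ P → I W₁ V₁ → V₁ ≠ V → k ∈ 𝐍[V₁] → X ∈ P →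
      I W₁ X → k ∈ 𝐍[X] := by
    intro W₁ V₁ X hW₁ i₁ hV₁ j₁ n₁ b₁ hX j
    by_cases e : X = V
    · exact e ▸ centralizer_le_normalizer' V c1
    obtain ⟨v, hv, rfl⟩ := h.symm.reg' hW₁ hV i₁.symm hV₁ j₁ n₁ hX j e
    exact cj_comm b₁ (c1 v hv)
  by_cases e : I W₁ X
  · exact on hW₁ i₁ hV₁ j₁ n₁ b₁ hX e
  obtain ⟨m, hm, k₁, k₂⟩ := h.join X hX V₁ hV₁
  obtain ⟨m', hm', k₃, k₄⟩ := h.join X hX V hV
  obtain ⟨Y, hY, k₅, k₆⟩ := h.d.join m hm W₂ hW₂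
  refine h.symm.norm_join g1 hm hm' (fun e' => e ?_) hX k₁.symm k₃.symm
    (h.norm_join g1 hY hV₁ (fun e' => n ?_) hm k₅.symm k₂ (on hW₂ i₂ hV₂ j₂ n₂ b₂ hY k₆) b₁)
    (h.line_of_cent g1 hV c1 hm' k₄)
  · exact h.uniq V₁ hV₁ V hV m hm W₁ hW₁ n₁ k₂ (e' ▸ k₄) j₁.symm i₁ ▸ k₁.symm
  · exact h.uniq V₁ hV₁ V hV _ hW₂ _ hW₁ n₁ (e' ▸ k₆.symm) i₂ j₁.symm i₁

theorem lemQ (h : Pl N q P L) (hV : V ∈ P) (hn : ∀ W ∈ L, I V W → g ∈ 𝐍[W])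
    (hz : z ∈ V) (z1 : z ≠ 1) (e : z * g = g * z) : g ∈ 𝐂[V] := by
  obtain ⟨W, hW, hz'⟩ := h.symm.centre hV hz z1
  have key : ∀ W' ∈ L, W' ≠ W → W' ⊓ V ≤ centralizer {g} := fun W' hW' ne x hx => by
    by_contra hc
    have x1 : x ≠ 1 := fun e => hc (e ▸ one_mem _)
    have nz : z ∉ W' := fun a => ne (h.d.ti _ hW' _ hW ⟨z, a, hz', z1⟩)
    have m := mul_mem hx.2 hz
    have m1 : x * z ≠ 1 := fun e => nz (eq_inv_of_mul_eq_one_right e ▸ inv_mem hx.1)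
    obtain ⟨W₁, hW₁, a⟩ := h.symm.centre hV m m1
    have b := cm_mem_of_norm (hn W₁ hW₁ ⟨_, m, a, m1⟩) a
    rw [show cm(g, (x * z)) = g * x * (z * g⁻¹ * z⁻¹) * x⁻¹ by group,
      show z * g⁻¹ * z⁻¹ = g⁻¹ by rw [mul_inv_eq_iff_eq_mul, mul_inv_eq_iff_eq_mul, mul_assoc, e]; group] at b
    rw [h.d.ti _ hW₁ _ hW' ⟨_, b, cm_mem_of_norm (hn W' hW' ⟨x, hx.2, hx.1, x1⟩) hx.1, fun e => hc
      (mem_centralizer_singleton_iff.2 (by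
        rw [mul_inv_eq_one, mul_inv_eq_iff_eq_mul] at e; exact e.symm))⟩] at a
    exact nz ((W'.mul_mem_cancel_left hx.1).1 a)
  obtain ⟨W₁, hW₁, i₁, n₁, -⟩ := h.three hV W W
  obtain ⟨W₂, hW₂, i₂, n₂, n⟩ := h.three hV W W₁
  exact fun x hx => mem_centralizer_singleton_iff.1
    (h.symm.gen2 hW₂ hW₁ n hV i₂.symm i₁.symm (key _ hW₂ n₂) (key _ hW₁ n₁) hx)

theorem fixpt (h : Pl N q P L) (hy : y ∈ 𝐍[N]) (hV : V ∈ P) (hW : W ∈ L) (i : I V W) (nV : y ∈ 𝐍[V])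
    (nW : y ∈ 𝐍[W]) : ∃ V' ∈ P, I W V' ∧ V' ≠ V ∧ ∃ v ∈ V, v * y ∈ 𝐍[V'] := by
  obtain ⟨V', hV', j, n, -⟩ := h.symm.three hW V V
  obtain ⟨v, hv, e⟩ := h.symm.reg' hW hV i.symm (h.nP hy hV nV hV') (j.nrm nW) (cj_ne nV n) hV' j n
  exact ⟨V', hV', j, n, v, hv, cj_eq_iff.1 (by rw [cj_mul, e])⟩

theorem mem_of_norm (h : Pl N q P L) (hV : V ∈ P) (hx : x ∈ N) (x2 : x * x = 1) (nV : x ∈ 𝐍[V]) :
    ∃ W ∈ L, I V W ∧ x ∈ W := by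
  by_cases x1 : x = 1
  · obtain ⟨W, hW, i, -⟩ := h.join V hV V hV
    exact ⟨W, hW, i, x1 ▸ one_mem W⟩
  obtain ⟨V', hV', a⟩ := h.inv x hx x2 x1
  obtain ⟨W, hW, b⟩ := h.d.inv x hx x2 x1
  exact ⟨W, hW, (h.norm V' hV' V hV W hW x a b x1).1 nV, b⟩

theorem lemA (h : Pl N q P L) (hy : y ∈ 𝐍[N]) (y2 : y * y = 1) (hV : V ∈ P) (hW : W ∈ L) (i : I V W)
    (nV : y ∈ 𝐍[V]) (nW : y ∈ 𝐍[W]) (hc : y ∈ 𝐂[V ⊓ W]) :
    ∃ n ∈ V ⊔ W, n * n = 1 ∧ n * y ∈ 𝐂[N] := by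
  have nN : ∀ v ∈ V, v ∈ 𝐍[N] := fun v hv => le_normalizer (h.le V hV hv)
  have cV : ∀ v ∈ V, v ∈ 𝐂[V ⊓ W] := fun v hv x hx => h.comm hV hx.1 hv
  obtain ⟨V', hV', j, n, v, hv, e⟩ := h.fixpt hy hV hW i nV nW
  have g1 := mul_mem (nN v hv) hy
  have w1 := mul_mem (h.symm.le_norm hW hV i.symm hv) nW
  obtain ⟨W', hW', j', n', -⟩ := h.three hV' W W
  obtain ⟨z, hz, e'⟩ := h.reg hV' hV n.symm hW j.symm i (h.nL g1 hV' e hW') (j'.nrm e) (cj_ne w1 n')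
    hW' j' n'
  replace e := mul_mem (h.le_norm hV' hW j.symm hz.2) e
  replace e' : z * (v * y) ∈ 𝐍[W'] := cj_eq_iff.1 (by rw [cj_mul, e'])
  have c1 := mul_mem (cV z hz.1) (mul_mem (cV v hv) hc)
  obtain ⟨x, hx, x1⟩ := (V' ⊓ 𝐂[zpowers (z * (v * y))]).bot_or_exists_ne_one.resolve_left
    (inf_centralizer_ne_bot ((isPGroup_sup (isPGroup_zpowers ⟨1, by simpa [pow_two] using y2⟩)
      (h.pg hV) (zpowers_le.2 nV)).to_le (zpowers_le.2 (mul_mem (mem_sup_right hz.1)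
      (mul_mem (mem_sup_right hv) (mem_sup_left (mem_zpowers y)))))) (h.pg hV') (zpowers_le.2 e)
      (h.ne_bot hV'))
  obtain ⟨v', hv', c⟩ := h.lemP (mul_mem (nN z hz.1) g1) hV' (h.lemQ hV' (fun W₁ hW₁ i₁ => by
    by_cases a : W₁ = W
    · exact a ▸ mul_mem (le_normalizer hz.2) w1
    obtain ⟨z', hz', rfl⟩ := h.reg hV' hV n.symm hW j.symm i hW' j' n' hW₁ i₁ a
    exact cj_comm e' (c1 z' hz')) hx.1 x1 (hx.2 _ (mem_zpowers _)).symm)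
  rw [← mul_assoc, ← mul_assoc] at c
  have hn := mul_mem (mul_mem (h.le _ hV' hv') (h.le V hV hz.1)) (h.le V hV hv)
  generalize v' * z * v = k at *
  have k2 : k * k = 1 := h.cent (mul_mem hn hn) (by
    rw [show k * k = k * y * (k * y) by
      rw [mul_assoc k y, ← mul_assoc y, ← mul_left_inj y, mul_assoc k k, c k hn]
      simp [mul_assoc, y2]]
    exact mul_mem c c)
  refine ⟨k, (h.isSyl hV hW i).le_of_normalizes (isPGroup_zpowers ⟨1, by simpa [pow_two] using k2⟩)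
    (zpowers_le.2 hn) (zpowers_le.2 ?_) (mem_zpowers k), k2, c⟩
  exact (mul_mem_cancel_right (le_normalizer_sup (zpowers_le.2 nV) (zpowers_le.2 nW)
    (mem_zpowers y))).1 (norm_of_cent c (h.isSyl hV hW i).le)

theorem lem2 (h : Pl N 2 P L) (hy : y ∈ 𝐍[N]) (hV : V ∈ P) (hW : W ∈ L) (i : I V W)
    (nV : y ∈ 𝐍[V]) (nW : y ∈ 𝐍[W]) : ∃ u ∈ V ⊔ W, u * y ∈ 𝐂[N] := by
  obtain ⟨V', hV', j, n, v, hv, e⟩ := h.fixpt hy hV hW i nV nW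
  have w1 := mul_mem (h.symm.le_norm hW hV i.symm hv) nW
  have c : ∀ V ∈ P, I V W → v * y ∈ 𝐍[V] → V ⊓ W ≤ centralizer {v * y} := fun V hV i e x hx =>
    mem_centralizer_singleton_iff.2 (cent_of_two (h.inf V hV W hW i)
      (le_normalizer_inf (zpowers_le.2 e) (zpowers_le.2 w1) (mem_zpowers _)) x hx)
  obtain ⟨w, hw, k⟩ := h.symm.lemP (mul_mem (le_normalizer (h.le V hV hv)) hy) hW fun x hx =>
    mem_centralizer_singleton_iff.1 (h.gen2 hV' hV n hW j.symm i (c V' hV' j.symm e)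
      (c V hV i (mul_mem (le_normalizer hv) nV)) hx)
  exact ⟨w * v, mul_mem (mem_sup_right hw) (mem_sup_left hv), by rwa [mul_assoc]⟩

theorem lines_le (h : Pl N q P L) (hV : V ∈ P) (hW : W ∈ L) (i : I V W) (hH : W ≤ H) (hW₁ : W₁ ∈ L)
    (i₁ : I V W₁) (n : W₁ ≠ W) (h₁ : W₁ ≤ H) (W₂) (hW₂ : W₂ ∈ L) (i₂ : I V W₂) : W₂ ≤ H := by
  by_cases e : W₂ = W
  · exact e ▸ hH
  obtain ⟨w, hw, rfl⟩ := h.reg' hV hW i hW₁ i₁ n hW₂ i₂ e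
  exact cj_le_of_mem h₁ (hH hw)

theorem top_of (h : Pl N q P L) (hV : V ∈ P) (hW : W ∈ L) (i : I V W) (hN : H ≤ N) (h1 : V ≤ H)
    (h2 : W ≤ H) (hV' : V' ∈ P) (n : ¬ I V' W) (h3 : V' ≤ H) : H = N := by
  have ne : V' ≠ V := fun e => n (e ▸ i)
  obtain ⟨W₁, hW₁, i₁, j₁⟩ := h.join V hV V' hV'
  have n₁ : W₁ ≠ W := fun e => n (e ▸ j₁)
  have a := h.lines_le hV hW i h2 hW₁ i₁ n₁
    (h.gen2 hV' hV ne hW₁ j₁ i₁ (inf_le_left.trans h3) (inf_le_left.trans h1))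
  have b : ∀ X ∈ P, ¬ I X W → X ≤ H := fun X hX nX => by
    obtain ⟨W₂, hW₂, i₂, j₂⟩ := h.join V hV X hX
    obtain ⟨w, hw, rfl⟩ := h.reg' hV hW i hW₁ i₁ n₁ hW₂ i₂ fun e => nX (e ▸ j₂)
    exact h.symm.lines_le hW₂ hV i₂.symm h1 (h.conj _ hV' w (h.d.le W hW hw)) (j₁.cj w).symm
      (cj_ne (h.le_norm hV hW i hw) ne) (cj_le_of_mem h3 (h2 hw)) X hX j₂.symm
  refine h.symm.eq_top hN fun m hm => ?_
  by_cases e : m = W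
  · exact e ▸ h2
  obtain ⟨Y, hY, k, k'⟩ := h.d.join m hm W hW
  obtain ⟨X₁, hX₁, k₁, n₁, -⟩ := h.symm.three hm Y Y
  obtain ⟨X₂, hX₂, k₂, n₂, n'⟩ := h.symm.three hm Y X₁
  have c : ∀ X ∈ P, I m X → X ≠ Y → X ⊓ m ≤ H := fun X hX k₁ n₁ => inf_le_left.trans
    (b X hX fun j => e (h.uniq X hX Y hY m hm W hW n₁ k₁.symm k.symm j k'.symm))
  exact h.gen2 hX₂ hX₁ n' hm k₂.symm k₁.symm (c _ hX₂ k₂ n₂) (c _ hX₁ k₁ n₁)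

theorem core_eq (h : Pl N q P L) (hV : V ∈ P) (hN : H ≤ N) (hn : H ≤ 𝐍[V])
    (hl : ∀ W ∈ L, I V W → W ≤ H) : pCoreOf 2 H = V := by
  obtain ⟨W₁, hW₁, i₁, -⟩ := h.three hV V V
  obtain ⟨W₂, hW₂, i₂, n, -⟩ := h.three hV W₁ W₁
  have hH : V ≤ H := h.symm.gen2 hW₂ hW₁ n hV i₂.symm i₁.symm (inf_le_left.trans (hl _ hW₂ i₂))
    (inf_le_left.trans (hl _ hW₁ i₁))
  have s : ∀ W ∈ L, I V W → pCoreOf 2 H ≤ V ⊔ W := fun W hW i =>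
    ((h.isSyl hV hW i).mono (sup_le hH (hl W hW i)) hN).pCoreOf_le
  refine le_antisymm (fun x hx => ?_) (le_pCoreOf (h.pg hV) hH hn)
  obtain ⟨v, hv, w, hw, rfl⟩ := (h.mem_sup hV hW₁ i₁).1 (s _ hW₁ i₁ hx)
  exact mul_mem hv (by_contra fun a => n (h.eq_of_norm hV hW₁ i₁ hw a hW₂ i₂
    ((mul_mem_cancel_left (h.symm.le_norm hW₂ hV i₂.symm hv)).1
      (h.sup_le_norm' hV hW₂ i₂ (s _ hW₂ i₂ hx)))))

theorem tricho (h : Pl N q P L) (hV : V ∈ P) (hW : W ∈ L) (i : I V W) (hN : H ≤ N) (ne : H ≠ N)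
    (hU : V ⊔ W ≤ H) : (pCoreOf 2 H = V ⊔ W) ∨ (pCoreOf 2 H = V ∧ ∀ W ∈ L, I V W → W ≤ H) ∨
      (pCoreOf 2 H = W ∧ ∀ V ∈ P, I W V → V ≤ H) := by
  have h1 := le_sup_left.trans hU
  have h2 := le_sup_right.trans hU
  have a : ∀ V' ∈ P, V' ≤ H → I V' W := fun V' hV' h3 => by_contra fun n =>
    ne (h.top_of hV hW i hN h1 h2 hV' n h3)
  have b : ∀ W' ∈ L, W' ≤ H → I W' V := fun W' hW' h3 => by_contra fun n =>
    ne (h.symm.top_of hW hV i.symm hN h2 h1 hW' n h3)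
  by_cases nW : H ≤ 𝐍[W]
  · by_cases nV : H ≤ 𝐍[V]
    · exact Or.inl (((h.isSyl hV hW i).mono hU hN).eq_pCoreOf (le_normalizer_sup nV nW))
    obtain ⟨g, hg, n⟩ := SetLike.not_le_iff_exists.1 nV
    have m := h.conj V hV g (hN hg)
    have l := h.symm.lines_le hW hV i.symm h1 m (a _ m (cj_le_of_mem h1 hg)).symm
      (fun e => n (cj_eq_iff.1 e)) (cj_le_of_mem h1 hg)
    exact Or.inr (Or.inr ⟨h.symm.core_eq hW hN nW l, l⟩)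
  obtain ⟨g, hg, n⟩ := SetLike.not_le_iff_exists.1 nW
  have m := h.d.conj W hW g (hN hg)
  have l := h.lines_le hV hW i h2 m (b _ m (cj_le_of_mem h2 hg)).symm
    (fun e => n (cj_eq_iff.1 e)) (cj_le_of_mem h2 hg)
  refine Or.inr (Or.inl ⟨h.core_eq hV hN (fun k hk => cj_eq_iff.1 (by_contra fun n' => ?_)) l, l⟩)
  have m' := h.conj V hV k (hN hk)
  obtain ⟨W', hW', i', n₁, -⟩ := h.three hV W W
  have m'' := h.d.conj W' hW' k (hN hk)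
  have e := h.uniq _ m' V hV _ m'' W hW n' (i'.cj k) (b _ m'' (cj_le_of_mem (l _ hW' i') hk)).symm
    (a _ m' (cj_le_of_mem h1 hk)) i
  obtain ⟨W₁, hW₁, i₁, -, n₂⟩ := h.three hV W W'
  have m₁ := h.d.conj W₁ hW₁ k (hN hk)
  exact n₂ (cj_inj.1 ((h.uniq _ m' V hV _ m₁ W hW n' (i₁.cj k)
    (b _ m₁ (cj_le_of_mem (l _ hW₁ i₁) hk)).symm (a _ m' (cj_le_of_mem h1 hk)) i).trans e.symm))

theorem card_ge (h : Pl N q P L) (hV : V ∈ P) (h1 : V ≤ H) (hl : ∀ W ∈ L, I V W → W ≤ H) :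
    (q * q - 1) * q ^ 3 ≤ Nat.card H := by
  obtain ⟨W, hW, ⟨z, a, b, c⟩, -⟩ := h.join V hV V hV
  have i : I V W := ⟨z, a, b, c⟩
  have st : ∀ x ∈ V, ∀ y ∈ V, (∀ W ∈ L, x ∈ W → y ∈ W → False) → ∃ g ∈ H, g * x * g⁻¹ = y := by
    intro x hx y hy n
    have x1 : x ≠ 1 := fun e => by
      obtain ⟨W, hW, -, m⟩ := h.mem_of_norm hV (h.le V hV hy) (h.sq V hV y hy) (le_normalizer hy)
      exact n W hW (e ▸ one_mem W) m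
    obtain ⟨W, hW, m⟩ := h.symm.centre hV hx x1
    have m1 : y * x⁻¹ ≠ 1 := fun e => n W hW m (mul_inv_eq_one.1 e ▸ m)
    have m2 := mul_mem hy (inv_mem hx)
    obtain ⟨W', hW', m'⟩ := h.symm.centre hV m2 m1
    obtain ⟨w, hw, e⟩ := h.symm.exists_cm hW' hV ⟨_, m', m2, m1⟩ (mem_sup_right hx)
      (fun a => n W' hW' a ((W'.mul_mem_cancel_right (inv_mem a)).1 m')) ⟨m', m2⟩
    exact ⟨w, hl W' hW' ⟨_, m2, m', m1⟩ hw, mul_right_cancel e⟩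
  rw [card_image H (centralizer {z}) (fun g => g * z * g⁻¹) fun a b => by
    rw [mem_centralizer_singleton_iff]
    exact ⟨fun e => by rw [show a⁻¹ * b * z = a⁻¹ * (b * z * b⁻¹) * b by group, ← e]; group,
      fun e => by rw [show b * z * b⁻¹ = a * (a⁻¹ * b * z) * b⁻¹ by group, e]; group⟩,
    ← h.card V hV, ← ncard_sub, ← h.card_sup hV hW i]
  refine Nat.mul_le_mul (Set.ncard_le_ncard fun y hy => ?_) (card_le_of_le (le_inf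
    (sup_le h1 (hl W hW i)) fun u hu => mem_centralizer_singleton_iff.2
      (((h.center hV hW i).ge ⟨a, b⟩).2 u hu)))
  have ax : ∀ W' ∈ L, ∀ y ∈ W, y ≠ 1 → y ∈ W' → W' = W := fun W' hW' y a b c =>
    h.d.ti _ hW' _ hW ⟨y, c, a, b⟩
  by_cases e : y ∈ W
  · obtain ⟨u, hu, n⟩ := SetLike.not_le_iff_exists.1 (h.not_le hV hW)
    obtain ⟨g, hg, rfl⟩ := st z a u hu fun W' hW' m m' => n (ax W' hW' z b c m ▸ m')
    obtain ⟨k, hk, e⟩ := st _ hu y hy.1 fun W' hW' m m' => n (ax W' hW' y e hy.2 m' ▸ m)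
    exact ⟨k * g, mul_mem hk hg, e ▸ by group⟩
  · exact st z a y hy.1 fun W' hW' m m' => e (ax W' hW' z b c m ▸ m')

end Pl

end Cfsg.Agent.PL3
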