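import Mathlib
import Cfsg.Agent.PL3.Aut

/-! Doubly transitive groups of even degree with a normal `L₃(2ⁿ)` in the point stabiliser: set-up. -/

set_option autoImplicit false
set_option linter.unusedSectionVars false

namespace Cfsg.Agent.PL3

open Subgroup Cfsg Cfsg.Agent.PLocal.Amb Cfsg.Agent.WTI MulAction

variable {G Ω : Type*} [Group G] [Finite G] [Finite Ω] [MulAction G Ω]

theorem cj_stab (g : G) (c : Ω) : cj(g, stabilizer G c) = stabilizer G (g • c) := by
  ext x; rw [mem_cj]; simp [mul_smul, inv_smul_eq_iff]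

theorem modEq_fix {p : ℕ} [Fact p.Prime] {T : Subgroup G} (hT : IsPGroup p T) {C : Set Ω}
    (hinv : ∀ t ∈ T, ∀ c ∈ C, t • c ∈ C) :
    C.ncard ≡ {c | c ∈ C ∧ T ≤ stabilizer G c}.ncard [MOD p] := by
  let _ : MulAction T C :=
    { smul := fun t c => ⟨(t : G) • c.1, hinv t t.2 c c.2⟩
      one_smul := fun c => Subtype.ext (one_smul G _)
      mul_smul := fun a b c => Subtype.ext (mul_smul (a : G) _ _) }
  have e := hT.card_modEq_card_fixedPoints C
  rw [Nat.card_coe_set_eq, Nat.card_coe_set_eq, ← Set.ncard_image_of_injective _ Subtype.val_injective] at e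
  convert e
  ext c
  exact ⟨fun hc => ⟨⟨c, hc.1⟩, fun t => Subtype.ext (hc.2 t.2), rfl⟩, by
    rintro ⟨c, hc, rfl⟩
    exact ⟨c.2, fun t ht => congrArg Subtype.val (hc ⟨t, ht⟩)⟩⟩

theorem card_orb (H : Subgroup G) (c : Ω) :
    Nat.card H = ((· • c) '' (H : Set G)).ncard * Nat.card ↥(H ⊓ stabilizer G c) :=
  card_image H _ _ fun a b => by rw [mem_stabilizer_iff, mul_smul, inv_smul_eq_iff, eq_comm]

theorem ncard_ne (a : Ω) : {c | c ≠ a}.ncard + 1 = Nat.card Ω := by
  rw [← Set.ncard_univ, ← Set.ncard_sdiff_singleton_add_one (Set.mem_univ a)]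
  congr 2; ext; simp

theorem fix_of_comm {g k : G} {c : Ω} (e : g * k = k * g) (h : k • c = c) : k • g • c = g • c := by
  rw [← mul_smul, ← e, mul_smul, h]

structure Tw (G Ω : Type*) [Group G] [MulAction G Ω] : Prop where
  faith : ∀ g : G, (∀ c : Ω, g • c = c) → g = 1
  two : ∀ a b c d : Ω, a ≠ b → c ≠ d → ∃ g : G, g • a = c ∧ g • b = d

theorem Tw.trans (s : Tw G Ω) {M : Subgroup G} [hM : M.Normal] (h : M ≠ ⊥) (x y : Ω) :
    ∃ m ∈ M, m • x = y := by
  obtain ⟨m, hm, m1⟩ := M.bot_or_exists_ne_one.resolve_left h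
  obtain ⟨a, ha⟩ := not_forall.1 (mt (s.faith m) m1)
  by_cases e : x = y
  · exact ⟨1, one_mem _, by rw [one_smul, e]⟩
  obtain ⟨g, rfl, rfl⟩ := s.two _ _ _ _ (Ne.symm ha) e
  exact ⟨_, hM.conj_mem m hm g, by simp [mul_smul]⟩

theorem Tw.card_eq (s : Tw G Ω) {M : Subgroup G} [M.Normal] (h : M ≠ ⊥) (x : Ω) :
    Nat.card M = Nat.card Ω * Nat.card ↥(M ⊓ stabilizer G x) := by
  rw [card_orb M x, Set.eq_univ_of_forall (s := (· • x) '' (M : Set G)) (s.trans h x), Set.ncard_univ]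

structure St (N : Ω → Subgroup G) (q : ℕ) : Prop extends Tw G Ω where
  even : Even (Nat.card Ω)
  cjN : ∀ g c, cj(g, N c) = N (g • c)
  fix : ∀ c, N c ≤ stabilizer G c
  pl : ∀ c, ∃ P L, Pl (N c) q P L

/-- `O₂` of a point stabiliser in `N a`. -/
def O (N : Ω → Subgroup G) (a b : Ω) : Subgroup G := pCoreOf 2 (N a ⊓ stabilizer G b)

variable {N : Ω → Subgroup G} {q : ℕ} {a b c : Ω} {g u : G} {P L : Set (Subgroup G)}

theorem O_le : O N a b ≤ N a := (pCoreOf_le _ _).trans inf_le_left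

theorem O_fix : O N a b ≤ stabilizer G b := (pCoreOf_le _ _).trans inf_le_right

theorem O_pg : IsPGroup 2 (O N a b) := isPGroup_pCoreOf _ _

namespace St

theorem O_fix' (s : St N q) : O N a b ≤ stabilizer G a := O_le.trans (s.fix a)

theorem cjO (s : St N q) (g : G) (a b : Ω) : cj(g, O N a b) = O N (g • a) (g • b) := by
  rw [O, O, ← pCoreOf_cj, cj_inf, s.cjN, cj_stab]

theorem nN (s : St N q) (h : g • a = a) : g ∈ 𝐍[N a] := cj_eq_iff.1 (by rw [s.cjN, h])

theorem nC (s : St N q) (h : g • a = a) : g ∈ 𝐍[𝐂[N a]] :=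
  normalizer_le_normalizer_centralizer _ (s.nN h)

theorem nO (s : St N q) (h : g • a = a) (h' : g • b = b) : g ∈ 𝐍[O N a b] :=
  cj_eq_iff.1 (by rw [s.cjO, h, h'])

theorem cent (s : St N q) (h : g ∈ N a) (h' : g ∈ 𝐂[N a]) : g = 1 := by
  obtain ⟨P, L, p⟩ := s.pl a
  exact p.cent h h'

theorem moves (s : St N q) (h : a ≠ b) : ∃ n ∈ N a, n • b ≠ b := by
  by_contra hc
  push Not at hc
  obtain ⟨P, L, p⟩ := s.pl a
  obtain ⟨V, hV⟩ := p.ne
  refine p.ne_bot hV ((eq_bot_iff_forall _).2 fun v hv => s.faith v fun c => ?_)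
  by_cases e : a = c
  · exact e ▸ s.fix a (p.le V hV hv)
  obtain ⟨g, h1, rfl⟩ := s.two _ _ _ _ h e
  have := hc _ (inv_conj_mem_of_mem_normalizer (s.nN h1) (p.le V hV hv))
  rwa [mul_smul, mul_smul, inv_smul_eq_iff] at this

theorem fixN (s : St N q) (h : g ∈ 𝐍[N a]) : g • a = a := by
  by_contra e
  obtain ⟨n, hn, e'⟩ := s.moves (Ne.symm e)
  exact e' (s.fix _ (s.cjN g a ▸ (cj_of_mem_normalizer h).ge hn))

theorem fixC (s : St N q) (h : g ∈ 𝐂[N a]) : g • a = a := s.fixN (centralizer_le_normalizer' _ h)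

theorem faithD (s : St N q) (h : a ≠ b) (hu : u • a = a) (hf : ∀ n ∈ N a, u • n • b = n • b) :
    u ∈ 𝐂[N a] := by
  obtain ⟨P, L, p⟩ := s.pl a
  have m : ∀ x, x ∈ N a ⊓ ⨅ n ∈ N a, stabilizer G (n • b) ↔ x ∈ N a ∧ ∀ n ∈ N a, x • n • b = n • b :=
    fun x => by simp [mem_iInf]
  have c : ∀ k ∈ N a, ∀ x : G, (∀ n ∈ N a, x • n • b = n • b) →
      ∀ n ∈ N a, (k * x * k⁻¹) • n • b = n • b := fun k hk x hx n hn => by
    rw [mul_smul, mul_smul, smul_smul k⁻¹, hx _ (mul_mem (inv_mem hk) hn), smul_smul, mul_inv_cancel_left]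
  rcases p.simple (N a ⊓ ⨅ n ∈ N a, stabilizer G (n • b)) inf_le_left (le_normalizer_iff_cj.2
    fun n hn => cj_le_iff_forall.2 fun x hx => (m _).2 ⟨mul_mem (mul_mem hn hx.1) (inv_mem hn),
      c n hn x ((m x).1 hx).2⟩) with e | e
  · intro n hn
    have := (eq_bot_iff_forall _).1 e _ ((m cm(n, u)).2 ⟨cm_mem_of_norm' hn (s.nN hu), fun k hk => by
      rw [mul_smul, inv_smul_eq_iff.2 (hf k hk).symm, c n hn u hf k hk]⟩)
    rwa [mul_inv_eq_one, mul_inv_eq_iff_eq_mul] at this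
  obtain ⟨n, hn, e'⟩ := s.moves h
  exact (e' (by simpa using ((m n).1 (e.ge hn)).2 1 (one_mem _))).elim

theorem exists_fix (s : St N q) {T : Subgroup G} (hT : IsPGroup 2 T) (h : T ≤ stabilizer G a) :
    ∃ c ≠ a, T ≤ stabilizer G c := by
  by_contra hc
  push Not at hc
  have e := modEq_fix hT (C := (Set.univ : Set Ω)) fun _ _ _ _ => trivial
  rw [show {c | c ∈ Set.univ ∧ T ≤ stabilizer G c} = {a} from Set.eq_singleton_iff_unique_mem.2
    ⟨⟨trivial, h⟩, fun c h => by_contra fun n => hc c n h.2⟩, Set.ncard_singleton, Set.ncard_univ] at e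
  exact absurd ((Nat.even_iff.1 s.even).symm.trans e) (by decide)

theorem tricho (s : St N q) (h : a ≠ b) (p : Pl (N a) q P L) : IsSyl 2 (O N a b) (N a) ∨
    (O N a b ∈ P ∧ ∀ W ∈ L, I (O N a b) W → W ≤ stabilizer G b) ∨
    (O N a b ∈ L ∧ ∀ W ∈ P, I (O N a b) W → W ≤ stabilizer G b) := by
  obtain ⟨T, hT⟩ := exists_isSyl 2 (N a)
  obtain ⟨c, hc, e⟩ := s.exists_fix hT.pgrp (hT.le.trans (s.fix a))
  obtain ⟨g, h1, rfl⟩ := s.two _ _ _ _ hc.symm h
  have t := hT.cj_of_mem_normalizer (s.nN h1)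
  obtain ⟨V, hV, W, hW, i, e'⟩ := p.flag t
  obtain ⟨n, hn, m⟩ := s.moves h
  rcases p.tricho hV hW i (H := N a ⊓ stabilizer G (g • c)) inf_le_left (fun e => m (e.ge hn).2)
    (e' ▸ le_inf t.le (cj_stab g c ▸ cj_mono g e)) with k | ⟨k, l⟩ | ⟨k, l⟩ <;> rw [O, k]
  · exact Or.inl (p.isSyl hV hW i)
  · exact Or.inr (Or.inl ⟨hV, fun W a b => (l W a b).trans inf_le_right⟩)
  · exact Or.inr (Or.inr ⟨hW, fun W a b => (l W a b).trans inf_le_right⟩)

end St

/-- No doubly transitive group of degree 22 has order 3696 or 7392. -/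
theorem Tw.no22 (s : Tw G Ω) (hΩ : Nat.card Ω = 22) (hG : Nat.card G = 3696 ∨ Nat.card G = 7392) :
    False := by
  have : Fact (Nat.Prime 11) := ⟨by norm_num⟩
  obtain ⟨P⟩ : Nonempty (Sylow 11 G) := inferInstance
  have hP : Nat.card P = 11 := by
    have e : Nat.card G = 11 * (Nat.card G / 11) := by omega
    rw [P.card_eq_multiplicity, e, Nat.factorization_eq_of_coprime_left
      (by rcases hG with e | e <;> rw [e] <;> norm_num) (by simp),
      Nat.Prime.factorization_self (by norm_num), pow_one]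
  have top : (⊤ : Subgroup G) ≠ ⊥ := fun e => by
    have := card_top (G := G); rw [e, card_bot] at this; omega
  have fpf : ∀ c : Ω, ¬ (P : Subgroup G) ≤ stabilizer G c := fun c e => by
    have e1 := s.card_eq top c
    have e2 := card_dvd_of_le e
    rw [card_top, top_inf_eq, hΩ] at e1
    rw [hP] at e2
    omega
  have key : ∀ r, r = 3 ∨ r = 7 → ¬ r ∣ Nat.card 𝐍[(P : Subgroup G)] := fun r hr e => by
    have : Fact r.Prime := ⟨by rcases hr with rfl | rfl <;> norm_num⟩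
    obtain ⟨g, hg⟩ := exists_prime_orderOf_dvd_card' r e
    have := isCyclic_of_prime_card hP
    have c : g ∈ (P : Subgroup G).normalizerMonoidHom.ker := by
      have e1 := orderOf_map_dvd (P : Subgroup G).normalizerMonoidHom g
      have e2 := orderOf_dvd_natCard ((P : Subgroup G).normalizerMonoidHom g)
      rw [IsCyclic.card_mulAut, hP, Nat.totient_prime (by norm_num)] at e2
      exact orderOf_eq_one_iff.1 (Nat.eq_one_of_dvd_coprimes (by
        rw [hg]; rcases hr with rfl | rfl <;> norm_num) e1 e2)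
    rw [normalizerMonoidHom_ker] at c
    have e1 := modEq_fix (isPGroup_zpowers (x := (g : G)) (p := r) ⟨1, by
      rw [pow_one, ← hg, ← orderOf_coe, pow_orderOf_eq_one]⟩) (C := (Set.univ : Set Ω)) fun _ _ _ _ => trivial
    have e2 := modEq_fix P.isPGroup' (C := {c : Ω | c ∈ Set.univ ∧ zpowers (g : G) ≤ stabilizer G c})
      fun t ht x hc => ⟨trivial, zpowers_le.2 (fix_of_comm (c t ht) (hc.2 (mem_zpowers _)))⟩
    rw [show {c | c ∈ {c : Ω | c ∈ Set.univ ∧ zpowers (g : G) ≤ stabilizer G c} ∧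
      (P : Subgroup G) ≤ stabilizer G c} = ∅ from Set.eq_empty_of_forall_notMem fun c h => fpf c h.2,
      Set.ncard_empty] at e2
    have e3 := Set.ncard_le_card {c : Ω | c ∈ Set.univ ∧ zpowers (g : G) ≤ stabilizer G c}
    have e4 := Set.eq_univ_iff_ncard {c : Ω | c ∈ Set.univ ∧ zpowers (g : G) ≤ stabilizer G c}
    rw [Set.ncard_univ, hΩ] at e1
    rw [hΩ] at e3 e4
    have g1 : (g : G) = 1 := s.faith g fun c => ((e4.2 (by
      unfold Nat.ModEq at e1 e2
      rcases hr with rfl | rfl <;> omega)).ge trivial : c ∈ _).2 (mem_zpowers _)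
    rw [← orderOf_coe, g1, orderOf_one] at hg
    omega
  have e1 := card_sylow_modEq_one 11 G
  have e2 := card_mul_index 𝐍[(P : Subgroup G)]
  replace e1 : (𝐍[(P : Subgroup G)]).index ≡ 1 [MOD 11] := P.card_eq_index_normalizer ▸ e1
  obtain ⟨k, hk⟩ := card_dvd_of_le (le_normalizer (H := (P : Subgroup G)))
  have e3 := key 3 (by simp)
  have e4 := key 7 (by simp)
  rw [hk, hP] at e2 e3 e4
  generalize (𝐍[(P : Subgroup G)]).index = m at *
  have e5 : k ∣ 672 := hG.elim (fun e => ⟨2 * m, by nlinarith⟩) fun e => ⟨m, by nlinarith⟩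
  have e6 : k = 1 ∧ Nat.card G = 7392 := by
    unfold Nat.ModEq at e1
    have := Nat.le_of_dvd (by norm_num) e5
    interval_cases k <;> omega
  have hn : 𝐍[(P : Subgroup G)] ≤ 𝐂[(P : Subgroup G)] := by
    have := isCyclic_of_prime_card hP
    rw [← eq_of_le_of_card_ge (le_normalizer (H := (P : Subgroup G))) (by rw [hk, e6.1, mul_one])]
    exact le_centralizer _
  have c := (MonoidHom.ker_transferSylow_isComplement' P hn).card_mul_card
  obtain ⟨a⟩ : Nonempty Ω := (Nat.card_pos_iff.1 (by omega)).1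
  have e7 := s.card_eq (M := (MonoidHom.transferSylow P hn).ker) (fun e => by
    rw [e, card_bot, hP] at c; omega) a
  rw [hΩ] at e7
  rw [hP] at c
  omega

end Cfsg.Agent.PL3
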