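import Mathlib
import Cfsg.Agent.PL3.Setup

/-! The Borel case cannot occur. -/

set_option autoImplicit false
set_option linter.unusedSectionVars false

namespace Cfsg.Agent.PL3

open Subgroup Cfsg Cfsg.Agent.PLocal.Amb Cfsg.Agent.WTI MulAction

variable {G Ω : Type*} [Group G] [Finite G] [Finite Ω] [MulAction G Ω]

theorem cm_split {a b c d : G} (h1 : Commute c a) (h2 : Commute c b) (h3 : Commute d a)
    (h4 : Commute d b) : cm((a * c), (b * d)) = cm(a, b) * cm(c, d) := by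
  rw [h1.symm.mul_inv, h4.symm.mul_inv, h2.mul_mul_mul_comm,
    (h1.mul_left h3).inv_right.mul_mul_mul_comm,
    ((h2.mul_left h4).mul_left h2.inv_left).inv_right.mul_mul_mul_comm]

theorem cm_fix {r x w : G} (h1 : Commute cm(r, x) x) (h2 : Commute cm(r, x) w) (h3 : r * w = w * r) :
    cm(x, w) * r = r * cm(x, w) := by
  rw [← mul_inv_eq_iff_eq_mul.1 (show r * cm(x, w) * r⁻¹ = cm(x, w) from ?_)]
  calc _ = cm((cm(r, x) * x), (r * w * r⁻¹)) := by group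
    _ = cm((x * cm(r, x)), (w * 1)) := by rw [h1.eq, h3, mul_inv_cancel_right, mul_one]
    _ = _ := by rw [cm_split h1 h2 (.one_left _) (.one_left _)]; group

namespace Pl

variable {N : Subgroup G} {q : ℕ} {P L : Set (Subgroup G)} {V W A B : Subgroup G} {t : G}

theorem lemT (h : Pl N q P L) (ht : t ∈ 𝐍[N]) (hV : V ∈ P) (hW : W ∈ L) (i : I V W)
    (hc : ∀ u ∈ V ⊔ W, cm(t, u) ∈ V ⊓ W) : ∃ u ∈ V ⊔ W, u * t ∈ 𝐂[N] := by
  have n : ∀ X ≤ V ⊔ W, V ⊓ W ≤ X → t ∈ 𝐍[X] := fun X a b => mem_normalizer_of_cj_le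
    (cj_le_iff_forall.2 fun x hx => (X.mul_mem_cancel_right (inv_mem hx)).1 (b (hc x (a hx))))
  obtain ⟨V', hV', j, ne, v, hv, e⟩ := h.fixpt ht hV hW i (n V le_sup_left inf_le_left)
    (n W le_sup_right inf_le_right)
  have k : ∀ u ∈ V ⊔ W, cm((v * t), u) ∈ V ⊓ W := fun u hu => by
    rw [show cm((v * t), u) = v * cm(t, u) * v⁻¹ * cm(v, u) by group]
    exact mul_mem (conj_mem_of_mem_normalizer (le_normalizer_inf le_normalizer
      (h.symm.le_norm hW hV i.symm) hv) (hc u hu)) (h.cm_mem hV hW i hv hu)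
  have c : ∀ w ∈ V' ⊓ W, v * t * w = w * (v * t) := fun w hw => by
    rw [← mul_inv_eq_iff_eq_mul, ← mul_inv_eq_one]
    exact by_contra fun a => ne (h.ti _ hV' _ hV ⟨_, cm_mem_of_norm e hw.1, (k w (mem_sup_right hw.2)).1, a⟩)
  obtain ⟨w, hw, a⟩ := h.symm.lemP (mul_mem (le_normalizer (h.le V hV hv)) ht) hW fun x hx =>
    mem_centralizer_singleton_iff.1 (h.gen2 hV' hV ne hW j.symm i
      (fun w hw => mem_centralizer_singleton_iff.2 (c w hw).symm) (fun z hz => by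
        obtain ⟨w, b, a, w1⟩ := j
        obtain ⟨x, hx, rfl⟩ := h.exists_cm hV hW i (mem_sup_right b)
          (fun b => ne (h.ti _ hV' _ hV ⟨w, a, b, w1⟩)) hz
        have m := k x (mem_sup_left hx)
        exact mem_centralizer_singleton_iff.2 (cm_fix (h.comm hV m.1 hx) (h.symm.comm hW m.2 b)
          (c w ⟨a, b⟩))) hx)
  exact ⟨w * v, mul_mem (mem_sup_right hw) (mem_sup_left hv), by rwa [mul_assoc]⟩

theorem four (h : Pl N q P L) (hq : q ≠ 2) (hV : V ∈ P) (W₁ W₂ W₃ : Subgroup G) :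
    ∃ W ∈ L, I V W ∧ W ≠ W₁ ∧ W ≠ W₂ ∧ W ≠ W₃ := by
  by_contra hc
  push Not at hc
  have e := Set.ncard_le_ncard (s := {W | W ∈ L ∧ I V W}) (t := {W₁, W₂, W₃}) fun W hW =>
    or_iff_not_imp_left.2 fun a => or_iff_not_imp_left.2 (hc W hW.1 hW.2 a)
  have := Set.ncard_insert_le W₁ {W₂, W₃}
  have := Set.ncard_insert_le W₂ {W₃}
  rw [h.ncard_I hV, Set.ncard_singleton] at *
  have := h.two_le
  omega

theorem syl_of (h : Pl N q P L) (hA : A ∈ P ∨ A ∈ L) (hB : B ∈ P ∨ B ∈ L) (ne : A ≠ B) (i : I A B) :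
    IsSyl 2 (A ⊔ B) N := by
  rcases hA with a | a <;> rcases hB with b | b
  exacts [(ne (h.ti _ a _ b i)).elim, h.isSyl a b i, h.symm.isSyl a b i, (ne (h.d.ti _ a _ b i)).elim]

theorem cj_eq_or (h : Pl N q P L) (hV : V ∈ P) (hW : W ∈ L) (i : I V W) (ht : t ∈ 𝐍[V ⊔ W]) :
    cj(t, V) = V ∨ cj(t, V) = W :=
  h.eq_or hV hW i (cj_le_of_mem_normalizer le_sup_left ht) (by
    rintro _ ⟨x, hx, rfl⟩; rw [← map_mul, h.sq V hV x hx, map_one]) ((card_cj _ _).trans (h.card V hV))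

theorem normW (h : Pl N q P L) (hV : V ∈ P) (hW : W ∈ L) (i : I V W) (ht : t ∈ 𝐍[V ⊔ W])
    (e : t ∈ 𝐍[V]) : t ∈ 𝐍[W] :=
  cj_eq_iff.1 ((h.symm.cj_eq_or hW hV i.symm (sup_comm V W ▸ ht)).resolve_right
    (cj_ne e fun a => h.notMem hV (a ▸ hW)))

theorem swapW (h : Pl N q P L) (hV : V ∈ P) (hW : W ∈ L) (i : I V W) (ht : t ∈ 𝐍[V ⊔ W])
    (e : cj(t, V) = W) : cj(t, W) = V :=
  (h.symm.cj_eq_or hW hV i.symm (sup_comm V W ▸ ht)).resolve_left fun a =>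
    h.notMem hV (cj_inj.1 (e.trans a.symm) ▸ hW)

theorem mem_inf_of_swap (h : Pl N q P L) (hV : V ∈ P) (hW : W ∈ L) (i : I V W) (ht : t ∈ 𝐍[V ⊔ W])
    (e : cj(t, V) = W) {u : G} (hu : u ∈ V ⊔ W) (u2 : u * u = 1) (c : u * t = t * u) : u ∈ V ⊓ W :=
  (h.inv_sup hV hW i hu u2).elim (fun a => ⟨a, e ▸ mem_cj_of_comm a c⟩)
    fun a => ⟨h.swapW hV hW i ht e ▸ mem_cj_of_comm a c, a⟩

end Pl

/-- the centre of `O N a b` -/
def Z (N : Ω → Subgroup G) (a b : Ω) : Subgroup G := O N a b ⊓ 𝐂[O N a b]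

structure SB (N : Ω → Subgroup G) (q : ℕ) : Prop extends St N q where
  syl : ∀ a b, a ≠ b → IsSyl 2 (O N a b) (N a)

/-- a flag describing `O N a b` -/
structure Fl (N : Ω → Subgroup G) (q : ℕ) (a b : Ω) (P L : Set (Subgroup G)) (V W : Subgroup G) :
    Prop where
  p : Pl (N a) q P L
  hV : V ∈ P
  hW : W ∈ L
  i : I V W
  o : O N a b = V ⊔ W

variable {N : Ω → Subgroup G} {q : ℕ} {a b c : Ω} {g u x y : G} {P L P' L' : Set (Subgroup G)}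
  {V W V' W' R : Subgroup G}

theorem Fl.z (f : Fl N q a b P L V W) : Z N a b = V ⊓ W := by rw [Z, f.o, f.p.center f.hV f.hW f.i]

theorem Fl.symm (f : Fl N q a b P L V W) : Fl N q a b L P W V :=
  ⟨f.p.symm, f.hW, f.hV, f.i.symm, f.o.trans (sup_comm _ _)⟩

theorem Fl.le (f : Fl N q a b P L V W) : V ≤ O N a b := f.o ▸ le_sup_left

namespace SB

theorem fl' (s : SB N q) (h : a ≠ b) (p : Pl (N a) q P L) : ∃ V W, Fl N q a b P L V W := by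
  obtain ⟨V, hV, W, hW, i, e⟩ := p.flag (s.syl a b h)
  exact ⟨V, W, p, hV, hW, i, e⟩

theorem fl (s : SB N q) (h : a ≠ b) : ∃ P L V W, Fl N q a b P L V W := by
  obtain ⟨P, L, p⟩ := s.pl a
  exact ⟨P, L, s.fl' h p⟩

theorem le_O (s : SB N q) (h : a ≠ b) (hR : IsPGroup 2 R) (h1 : R ≤ N a) (h2 : R ≤ stabilizer G b) :
    R ≤ O N a b :=
  (s.syl a b h).le_of_normalizes hR h1 fun _ hx => s.nO (s.fix a (h1 hx)) (h2 hx)

theorem eq_O (s : SB N q) (h : a ≠ b) (hR : IsSyl 2 R (N a)) (h2 : R ≤ stabilizer G b) :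
    O N a b = R := (hR.eq O_pg (s.le_O h hR.pgrp hR.le h2) O_le)

theorem mem_O (s : SB N q) (h : a ≠ b) (h0 : x * x = 1) (h1 : x ∈ N a) (h2 : x ∈ 𝐍[O N a b]) :
    x ∈ O N a b :=
  (s.syl a b h).le_of_normalizes (isPGroup_zpowers ⟨1, by simpa [pow_two] using h0⟩) (zpowers_le.2 h1)
    (zpowers_le.2 h2) (mem_zpowers x)

theorem surj (s : SB N q) (h : a ≠ b) (hR : IsSyl 2 R (N a)) : ∃ n ∈ N a, O N a (n • b) = R := by
  obtain ⟨n, hn, e⟩ := hR.exists_cj_eq (s.syl a b h)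
  exact ⟨n, hn, by rw [← e, s.cjO, s.fix a hn]⟩

theorem nOO (s : SB N q) : O N b a ≤ 𝐍[O N a b] := fun _ hx => s.nO (O_fix hx) (s.O_fix' hx)

theorem cardZ (s : SB N q) (h : a ≠ b) : Nat.card (Z N a b) = q := by
  obtain ⟨P, L, V, W, f⟩ := s.fl h
  rw [f.z, f.p.inf V f.hV W f.hW f.i]

theorem cjZ (s : SB N q) (g : G) (a b : Ω) : cj(g, Z N a b) = Z N (g • a) (g • b) := by
  rw [Z, Z, cj_inf, ← centralizer_cj, s.cjO]

theorem exZ (s : SB N q) (h : a ≠ b) : ∃ z ∈ Z N a b, z ≠ 1 := by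
  obtain ⟨P, L, V, W, f⟩ := s.fl h
  obtain ⟨z, a, b, c⟩ := f.i
  exact ⟨z, f.z ▸ ⟨a, b⟩, c⟩

theorem Z_of_le (s : SB N q) (h : a ≠ b) (e : Z N a b ≤ O N b a) : Z N a b = Z N b a := by
  have c := (s.cardZ h).trans (s.cardZ h.symm).symm
  by_cases k : Z N a b ≤ Z N b a
  · exact eq_of_le_of_card_ge k c.ge
  obtain ⟨u, hu, n⟩ := SetLike.not_le_iff_exists.1 k
  obtain ⟨P, L, V, W, f⟩ := s.fl h.symm
  refine (eq_of_le_of_card_ge ?_ c.le).symm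
  rw [f.z] at n ⊢
  exact f.p.inf_le f.hV f.hW f.i (f.o ▸ le_normalizer_inf s.nOO (le_normalizer_centralizer s.nOO))
    (f.o ▸ e hu) n hu

theorem Z_symm (s : SB N q) (h : a ≠ b) : Z N a b = Z N b a := by
  by_contra hc
  have u : ∀ x y, x ≠ y → ¬ Z N x y ≤ O N y x := fun x y n e => by
    obtain ⟨g, rfl, rfl⟩ := s.two _ _ _ _ n h
    exact hc (by rw [← s.cjZ, ← s.cjZ, s.Z_of_le n e])
  have d : ∀ x y, x ≠ y → O N x y ⊓ O N y x ≤ Z N x y := fun x y n v hv => by_contra fun k => by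
    obtain ⟨P, L, V, W, f⟩ := s.fl n
    rw [f.z] at k
    exact u x y n (f.z ▸ (f.p.inf_le f.hV f.hW f.i (f.o ▸ le_normalizer_inf le_normalizer s.nOO)
      (f.o ▸ hv.1) k hv).trans inf_le_right)
  have k : ∀ x y, x ≠ y → Z N y x ≤ 𝐂[N x] := fun x y n => by
    obtain ⟨P, L, V, W, f⟩ := s.fl n
    have A : ∀ t ∈ O N y x, ∃ z ∈ V ⊓ W, ∃ c ∈ 𝐂[N x], t = z * c := fun t ht => by
      obtain ⟨v, hv, c⟩ := f.p.lemT (s.nN (O_fix ht)) f.hV f.hW f.i fun v hv => f.z ▸ d x y n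
        ⟨cm_mem_of_norm (s.nOO ht) (f.o ▸ hv), cm_mem_of_norm' ht (s.nOO (f.o ▸ hv))⟩
      refine ⟨v⁻¹, by_contra fun k => u x y n (f.z ▸ fun z hz => ?_), _, c, by simp⟩
      obtain ⟨w, hw, rfl⟩ := f.p.exists_cm' f.hV f.hW f.i (inv_mem hv) k hz
      have e := cm_mem_of_norm (s.nOO (f.o ▸ hw)) ht
      have l := (f.p.isSyl f.hV f.hW f.i).le
      rwa [show cm(w, t) = cm((w * 1), (v⁻¹ * (v * t))) by group, cm_split (.one_left _) (.one_left _)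
        (c w (l hw)).symm (c _ (l (inv_mem hv))).symm, show cm((1 : G), (v * t)) = 1 by group,
        mul_one] at e
    obtain ⟨P', L', V', W', f'⟩ := s.fl n.symm
    obtain ⟨v, hv, k⟩ := SetLike.not_le_iff_exists.1 (f'.p.not_le f'.hV f'.hW)
    intro z hz
    obtain ⟨w, hw, rfl⟩ := f'.p.exists_cm' f'.hV f'.hW f'.i (mem_sup_left hv) (fun a => k a.2) (f'.z ▸ hz)
    obtain ⟨z₁, a₁, c₁, b₁, rfl⟩ := A w (f'.o ▸ hw)
    obtain ⟨z₂, a₂, c₂, b₂, rfl⟩ := A v (f'.le hv)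
    have l := f.p.le V f.hV
    rw [cm_split (b₁ _ (l a₁.1)).symm (b₁ _ (l a₂.1)).symm (b₂ _ (l a₁.1)).symm (b₂ _ (l a₂.1)).symm,
      f.p.comm f.hV a₁.1 a₂.1, mul_inv_cancel_right, mul_inv_cancel, one_mul]
    exact mul_mem (mul_mem (mul_mem b₁ b₂) (inv_mem b₁)) (inv_mem b₂)
  obtain ⟨n, hn, m⟩ := s.moves h
  obtain ⟨z, hz, z1⟩ := s.exZ h.symm
  have e : Z N b a ≤ N (n • b) := by
    rw [← cj_of_mem_normalizer (centralizer_le_normalizer' _ (le_centralizer_iff.1 (k a b h) hn)), s.cjZ]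
    exact inf_le_left.trans O_le
  have e' : Z N b a ≤ N b := inf_le_left.trans O_le
  have pg : IsPGroup 2 (Z N b a) := O_pg.to_inf_left
  exact z1 (s.cent (e hz) (k _ _ m (d _ _ m.symm
    ⟨s.le_O m.symm pg e' (e.trans (s.fix _)) hz, s.le_O m pg e (e'.trans (s.fix _)) hz⟩)))

theorem E_one (s : SB N q) (h : a ≠ b) (h1 : x ∈ O N b a) (h2 : x ∈ 𝐂[N a]) : x = 1 := by
  by_contra x1
  obtain ⟨y, hy, y1⟩ := (O N b a ⊓ 𝐂[N a] ⊓ 𝐂[O N b a]).bot_or_exists_ne_one.resolve_left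
    (inf_centralizer_ne_bot O_pg O_pg.to_inf_left (le_normalizer_inf le_normalizer
      fun _ hx => s.nC (O_fix hx)) fun e => x1 ((eq_bot_iff_forall _).1 e x ⟨h1, h2⟩))
  exact y1 (s.cent (O_le ((s.Z_symm h).ge ⟨hy.1.1, hy.2⟩).1) hy.1.2)

theorem K_symm (s : SB N q) (h : a ≠ b) (h1 : y ∈ 𝐂[N a]) (h2 : y • b = b) : y ∈ 𝐂[N b] := by
  obtain ⟨P, L, V, W, f⟩ := s.fl h.symm
  obtain ⟨v, hv, c⟩ := f.p.lemP (s.nN h2) f.hV fun x hx => by
    rw [← mul_inv_eq_iff_eq_mul, ← mul_inv_eq_one]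
    exact s.E_one h (cm_mem_of_norm' (f.le hx) (s.nO h2 (s.fixC h1)))
      (cm_mem_of_norm (s.nC (O_fix (f.le hx))) h1)
  rwa [s.E_one h (f.le hv) (s.faithD h (O_fix (f.le hv)) fun n hn => ?_), one_mul] at c
  by_cases e : b = n • b
  · exact e ▸ s.O_fix' (f.le hv)
  exact O_fix (s.mem_O e (f.p.sq V f.hV v hv) (f.p.le V f.hV hv) ((mul_mem_cancel_right
    (s.nO h2 (fix_of_comm (h1 n hn) h2))).1 (norm_of_cent c O_le)))

theorem K_one (s : SB N q) (h : a ≠ b) (h1 : y ∈ 𝐂[N a]) (h2 : y • b = b) : y = 1 := by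
  let K : Ω → Ω → Subgroup G := fun a b => 𝐂[N a] ⊓ stabilizer G b
  have sy : ∀ {a b}, a ≠ b → K a b ≤ K b a := fun h y hy => ⟨s.K_symm h hy.1 hy.2, s.fixC hy.1⟩
  have eq : ∀ {a b c d}, a ≠ b → c ≠ d → K a b ≤ K c d → K a b = K c d := fun {a b c d} h h' e => by
    obtain ⟨g, rfl, rfl⟩ := s.two _ _ _ _ h h'
    refine eq_of_le_of_card_ge e ?_
    simp only [K]
    rw [← s.cjN, centralizer_cj, ← cj_stab, ← cj_inf, card_cj]
  refine s.faith y fun x => by_contra fun hx => ?_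
  have n : ∀ {c}, K a b ≤ stabilizer G c → c ≠ x := fun e e' => hx (e' ▸ e ⟨h1, h2⟩)
  have na : K a b ≤ stabilizer G a := fun y hy => s.fixC hy.1
  obtain ⟨z, hz, z1⟩ := s.exZ (n na)
  have za := O_le hz.1
  refine z1 (s.cent za (s.faithD h (s.fix a za) fun m hm => by_contra fun hc => ?_))
  have f : K a b ≤ stabilizer G (m • b) := fun y hy => fix_of_comm (hy.1 m hm) hy.2
  generalize m • b = c at *
  have ca : a ≠ c := fun e => hc (e ▸ s.fix a za)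
  have e1 : K a b ≤ K c (z • c) := fun y hy =>
    ⟨(sy ca ⟨hy.1, f hy⟩).1, fix_of_comm (hy.1 z za) (f hy)⟩
  rw [← eq (n f) (Ne.symm hc) fun y hy => ⟨hy.1, fix_of_comm ((sy (n f) hy).1 z
    (O_le ((s.Z_symm (n na)).le hz).1)) (s.fixC hy.1)⟩] at e1
  exact hx (e1 ⟨h1, h2⟩).2

theorem mem_of_pres (s : SB N q) (h : a ≠ b) (f : Fl N q a b P L V W) (hy : y ∈ O N b a)
    (y2 : y * y = 1) (e : y ∈ 𝐍[V]) : y ∈ O N a b := by
  obtain ⟨n, hn, -, c⟩ := f.p.lemA (s.nN (O_fix hy)) y2 f.hV f.hW f.i e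
    (f.p.normW f.hV f.hW f.i (f.o ▸ s.nOO hy) e)
    (by rw [← f.z, s.Z_symm h]; exact fun z hz => (hz.2 y hy).symm)
  rw [← f.o] at hn
  rw [eq_inv_of_mul_eq_one_right (s.K_one h c (by rw [mul_smul, s.O_fix' hy, O_fix hn]))]
  exact inv_mem hn

theorem swap (s : SB N q) (h : a ≠ b) (hβ : O N a b ≠ O N b a) (f : Fl N q a b P L V W)
    (hy : y ∈ O N b a) (y2 : y * y = 1) (n : y ∉ V ⊓ W) : cj(y, V) = W := by
  have o : ∀ y ∈ O N b a, y ∈ 𝐍[V ⊔ W] := fun y hy => f.o ▸ s.nOO hy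
  refine (f.p.cj_eq_or f.hV f.hW f.i (o y hy)).resolve_left fun e => ?_
  have m := s.mem_of_pres h f hy y2 (cj_eq_iff.1 e)
  have key : ∀ {P' L' V' W'}, Fl N q b a P' L' V' W' → y ∉ V' := fun {P' L' V' W'} f' k => by
    by_cases e : V' ≤ 𝐍[V]
    · have e' : O N b a ≤ 𝐍[V] := by
        have := f'.p.sup_le_norm f'.hV f'.hW f'.i
        rw [← f'.o] at this
        rcases f.p.eq_or f.hV f.hW f.i (fun x hx => f.o ▸ s.mem_of_pres h f (f'.le hx)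
          (f'.p.sq _ f'.hV x hx) (e hx)) (f'.p.sq _ f'.hV) (f'.p.card _ f'.hV) with rfl | rfl
        · exact this
        · exact fun x hx => f.p.symm.normW f.hW f.hV f.i.symm (sup_comm V V' ▸ o x hx) (this hx)
      refine hβ (eq_of_le_of_card_ge (f'.o ▸ sup_le (fun x hx => s.mem_of_pres h f (f'.le hx)
        (f'.p.sq _ f'.hV x hx) (e hx)) fun x hx => s.mem_of_pres h f (f'.symm.le hx)
        (f'.p.d.sq _ f'.hW x hx) (e' (f'.symm.le hx))) ?_).symm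
      rw [f.o, f'.o, f.p.card_sup f.hV f.hW f.i, f'.p.card_sup f'.hV f'.hW f'.i]
    obtain ⟨t, ht, e⟩ := SetLike.not_le_iff_exists.1 e
    exact n (f.p.mem_inf_of_swap f.hV f.hW f.i (o t (f'.le ht)) ((f.p.cj_eq_or f.hV f.hW f.i
      (o t (f'.le ht))).resolve_left fun a => e (cj_eq_iff.1 a)) (f.o ▸ m) y2 (f'.p.comm f'.hV k ht))
  obtain ⟨P', L', V', W', f'⟩ := s.fl h.symm
  exact (f'.p.inv_sup f'.hV f'.hW f'.i (f'.o ▸ hy) y2).elim (key f') (key f'.symm)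

theorem beta_two (s : SB N q) (h : a ≠ b) (hβ : O N a b ≠ O N b a) : q = 2 := by
  obtain ⟨P, L, V, W, f⟩ := s.fl h
  obtain ⟨P', L', V', W', f'⟩ := s.fl h.symm
  have z : V' ⊓ W' = V ⊓ W := by rw [← f.z, ← f'.z, s.Z_symm h]
  obtain ⟨x, hx, n⟩ := SetLike.not_le_iff_exists.1 (f'.p.not_le f'.hV f'.hW)
  have sw : ∀ x ∈ V', x ∉ V' ⊓ W' → cj(x, V) = W := fun x hx n =>
    s.swap h hβ f (f'.le hx) (f'.p.sq _ f'.hV x hx) (z ▸ n)
  have e := Set.ncard_le_ncard (s := (V' : Set G)) (t := (V' ⊓ W' : Subgroup G) ∪ (x * ·) ''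
      (V' ⊓ W' : Subgroup G)) fun y hy => or_iff_not_imp_left.2 fun k => ⟨x * y, by_contra fun k' =>
    f.p.notMem f.hV (by
      have := sw _ (mul_mem hx hy) k'
      rw [cj_mul, sw y hy k, f.p.swapW f.hV f.hW f.i (f.o ▸ s.nOO (f'.le hx)) (sw x hx fun a => n a.2)]
        at this
      exact this ▸ f.hW), by simp only; rw [← mul_assoc, f'.p.sq _ f'.hV x hx, one_mul]⟩
  have e1 := (Set.ncard_union_le _ _).trans' e
  rw [Set.ncard_image_of_injective _ (mul_right_injective x)] at e1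
  have e2 : q * q ≤ q + q := by
    rw [← f'.p.card _ f'.hV]; conv_rhs => rw [← f'.p.inf _ f'.hV _ f'.hW f'.i]
    exact e1
  have := f.p.two_le
  nlinarith

theorem beta_fib (s : SB N 2) (hβ : ∀ a b, a ≠ b → O N a b ≠ O N b a) (hb : a ≠ b) (hc : a ≠ c)
    (e : O N a b ≤ stabilizer G c) : b = c := by
  by_contra ne
  have e0 : O N a c = O N a b := s.eq_O hc (s.syl a b hb) e
  have key : ∀ {b c}, a ≠ b → a ≠ c → b ≠ c → O N a c = O N a b → O N b c = O N b a := by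
    intro b c hb hc ne e0
    obtain ⟨z, hz, z1⟩ := s.exZ hb
    have zb := (s.Z_symm hb).le hz
    have zc := (s.Z_symm hc).le (show z ∈ Z N a c by rwa [Z, e0])
    obtain ⟨P, L, V, W, f⟩ := s.fl hb.symm
    obtain ⟨V', W', f'⟩ := s.fl' ne f.p
    rw [f.z] at zb
    have z2 := f.p.sq V f.hV z zb.1
    have zb' := f.p.le V f.hV zb.1
    have m : z ∈ V' ⊓ W' := by_contra fun n => f.p.notMem (f.p.conj _ f'.hV z zb')
      (s.swap ne (hβ _ _ ne) f' (s.mem_O (Ne.symm ne) z2 (O_le zc.1)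
        (s.nO (s.O_fix' zc.1) (s.fix b zb'))) z2 n ▸ f'.hW)
    rw [f.o, f'.o, f.p.ti _ f.hV _ f'.hV ⟨z, zb.1, m.1, z1⟩, f.p.d.ti _ f.hW _ f'.hW ⟨z, zb.2, m.2, z1⟩]
  have e1 := key hb hc ne e0
  have e2 := key hc hb (Ne.symm ne) e0.symm
  obtain ⟨P, L, V, W, f⟩ := s.fl hb
  obtain ⟨P', L', V', W', f'⟩ := s.fl hb.symm
  obtain ⟨P'', L'', V'', W'', f''⟩ := s.fl hc.symm
  obtain ⟨x, hx, nx⟩ := SetLike.not_le_iff_exists.1 (f'.p.not_le f'.hV f'.hW)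
  obtain ⟨y, hy, ny⟩ := SetLike.not_le_iff_exists.1 (f''.p.not_le f''.hV f''.hW)
  have x2 := f'.p.sq _ f'.hV x hx
  have y2 := f''.p.sq _ f''.hV y hy
  have z1 : V ⊓ W = V' ⊓ W' := by rw [← f.z, ← f'.z, s.Z_symm hb]
  have z2 : V ⊓ W = V'' ⊓ W'' := by rw [← f.z, ← f''.z, ← s.Z_symm hc, Z, Z, e0]
  have sx := s.swap hb (hβ _ _ hb) f (f'.le hx) x2 fun a => nx (z1.le a).2
  have sy := s.swap hc (hβ _ _ hc) ⟨f.p, f.hV, f.hW, f.i, e0.trans f.o⟩ (f''.le hy) y2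
    fun a => ny (z2.le a).2
  have sy' := s.swap ne (hβ _ _ ne) ⟨f'.p, f'.hV, f'.hW, f'.i, e1.trans f'.o⟩ (e2.ge (f''.le hy)) y2
    fun a => ny ((z1.symm.trans z2).le a).2
  have ox : x ∈ 𝐍[V ⊔ W] := f.o ▸ s.nOO (f'.le hx)
  have oy : y ∈ 𝐍[V ⊔ W] := f.o ▸ e0 ▸ s.nOO (f''.le hy)
  have nV : x * y ∈ 𝐍[V] := cj_eq_iff.1 (by rw [cj_mul, sy, f.p.swapW f.hV f.hW f.i ox sx])
  obtain ⟨u, hu, k⟩ := f.p.lem2 (s.nN (by rw [mul_smul, O_fix (f''.le hy), O_fix (f'.le hx)]))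
    f.hV f.hW f.i nV (f.p.normW f.hV f.hW f.i (mul_mem ox oy) nV)
  have m : x * y ∈ V ⊔ W := by
    rw [eq_inv_of_mul_eq_one_right (s.K_one hb k (by
      rw [mul_smul, mul_smul, O_fix (e2.ge (f''.le hy)), s.O_fix' (f'.le hx), O_fix (f.o.ge hu)]))]
    exact inv_mem hu
  have sw : cj(x * y, V') ≠ V' := by
    rw [cj_mul, sy', cj_of_mem_normalizer (f'.p.symm.le_norm f'.hW f'.hV f'.i.symm hx)]
    exact fun e => f'.p.notMem f'.hV (e ▸ f'.hW)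
  have u2 : x * y * (x * y) = 1 := by
    obtain ⟨v, hv, w, hw, e⟩ := (f.p.mem_sup f.hV f.hW f.i).1 m
    rw [e] at sw ⊢
    by_cases a : v ∈ W
    · exact f.p.d.sq W f.hW _ (mul_mem a hw)
    by_cases b : w ∈ V
    · exact f.p.sq V f.hV _ (mul_mem hv b)
    refine (sw ?_).elim
    rw [cj_mul, s.swap hb.symm (hβ _ _ hb.symm) f' (f.symm.le hw) (f.p.d.sq W f.hW w hw)
      fun k => b (z1.ge k).1, s.swap hb.symm (hβ _ _ hb.symm) f'.symm (f.le hv) (f.p.sq V f.hV v hv)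
      fun k => a (z1.ge ⟨k.2, k.1⟩).2]
  exact sw (cj_of_mem (z1.le (f.p.mem_inf_of_swap f.hV f.hW f.i ox sx m u2 (by
    rw [← mul_left_inj y, mul_assoc _ x, u2, ← mul_assoc x, x2, one_mul, y2]))).1)

theorem fix_or (s : SB N q) (p : Pl (N a) q P L) (hV : V ∈ P) (hW : W ∈ L) (h1 : x ∈ V) (h2 : x ∈ W)
    (x1 : x ≠ 1) (e : x • b = b) : V ≤ stabilizer G b ∨ W ≤ stabilizer G b := by
  by_cases h : a = b
  · exact Or.inl (h ▸ (p.le V hV).trans (s.fix a))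
  obtain ⟨V', W', f⟩ := s.fl' h p
  have x2 := p.sq V hV x h1
  exact (p.inv_sup f.hV f.hW f.i (f.o.le (s.mem_O h x2 (p.le V hV h1) (s.nO (s.fix a (p.le V hV h1)) e)))
    x2).imp (fun k => p.ti _ hV _ f.hV ⟨x, h1, k, x1⟩ ▸ f.le.trans O_fix)
    fun k => p.d.ti _ hW _ f.hW ⟨x, h2, k, x1⟩ ▸ f.symm.le.trans O_fix

theorem pick (s : SB N q) (h : a ≠ b) (p : Pl (N a) q P L) (hV : V ∈ P) (hW : W ∈ L) (i : I V W) :
    ∃ c, a ≠ c ∧ Fl N q a c P L V W ∧ ∀ V' ∈ P, V' ≤ stabilizer G c → V' = V := by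
  obtain ⟨n, hn, e⟩ := s.surj h (p.isSyl hV hW i)
  have k : a ≠ n • b := fun k => h (smul_left_cancel n (by rw [← k, s.fix a hn]))
  exact ⟨_, k, ⟨p, hV, hW, i, e⟩, fun V' hV' l =>
    p.eq_of_le hV hW i hV' (e ▸ s.le_O k (p.pg hV') (p.le _ hV') l)⟩

theorem alpha (s : SB N q) (hα : ∀ a b, a ≠ b → O N a b = O N b a) (h : a ≠ b) (p : Pl (N a) q P L)
    (hV : V ∈ P) (hW : W ∈ L) (i : I V W) {d e : Ω} (h1 : W ≤ stabilizer G d)
    (h2 : ¬ V ≤ stabilizer G d) (h3 : W ≤ stabilizer G c) (h4 : ¬ V ≤ stabilizer G c) (ne : d ≠ c)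
    (h5 : W ≤ stabilizer G e) (h6 : ¬ V ≤ stabilizer G e) : O N d c ≤ stabilizer G e := by
  have mem : ∀ {a d A P L}, A ≤ N a → (∀ x ∈ A, x * x = 1) → Nat.card A = q * q →
      A ≤ stabilizer G d → Pl (N d) q P L → A ∈ P ∨ A ∈ L := fun {a d A P L} l sq cd f p => by
    refine p.mem_or ?_ sq cd
    by_cases k : a = d
    · exact k ▸ l
    · exact ((s.le_O k (isPGroup_of_sq sq) l f).trans (hα _ _ k).le).trans O_le
  obtain ⟨W₁, hW₁, i₁, n₁, -⟩ := p.three hV W W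
  obtain ⟨x, -, f, k⟩ := s.pick h p.symm hW₁ hV i₁.symm
  obtain ⟨z, z1, z2, z3⟩ := i
  obtain ⟨P', L', p', hV'⟩ : ∃ P' L', Pl (N x) q P' L' ∧ V ∈ P' := by
    obtain ⟨P', L', p'⟩ := s.pl x
    exact (mem (p.le V hV) (p.sq V hV) (p.card V hV) (f.symm.le.trans O_fix) p').elim
      (fun a => ⟨_, _, p', a⟩) fun a => ⟨_, _, p'.symm, a⟩
  obtain ⟨W', hW', z4⟩ := p'.symm.centre hV' z1 z3
  have l : ∀ {d : Ω}, W ≤ stabilizer G d → ¬ V ≤ stabilizer G d → W' ≤ stabilizer G d := fun a b =>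
    (s.fix_or p' hV' hW' z1 z4 z3 (a z2)).resolve_left b
  obtain ⟨P'', L'', p''⟩ := s.pl d
  rw [s.eq_O ne (p''.syl_of (mem (p.d.le W hW) (p.d.sq W hW) (p.d.card W hW) h1 p'')
    (mem (p'.d.le _ hW') (p'.d.sq _ hW') (p'.d.card _ hW') (l h1 h2) p'')
    (fun e => n₁ (k W hW (e ▸ (p'.d.le _ hW').trans (s.fix x))).symm) ⟨z, z2, z4, z3⟩)
    (sup_le h3 (l h3 h4))]
  exact sup_le h5 (l h5 h6)

theorem alpha_fib (s : SB N q) (hα : ∀ a b, a ≠ b → O N a b = O N b a) (hb : a ≠ b) (hc : a ≠ c)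
    (e : O N a b ≤ stabilizer G c) : b = c := by
  by_contra ne
  obtain ⟨P, L, V₁, W, f⟩ := s.fl hb
  obtain ⟨V, hV, i, n, -⟩ := f.p.symm.three f.hW V₁ V₁
  obtain ⟨V₂, hV₂, i₂, n₁, n₂⟩ := f.p.symm.three f.hW V V₁
  obtain ⟨d, hd, f', k⟩ := s.pick hb f.p hV₂ f.hW i₂.symm
  have e0 : O N a c = O N a b := s.eq_O hc (s.syl a b hb) e
  have nf : ∀ {b}, a ≠ b → O N a b = V₁ ⊔ W → ¬ V ≤ stabilizer G b := fun hb o l =>
    n (f.p.eq_of_le f.hV f.hW f.i hV (o ▸ s.le_O hb (f.p.pg hV) (f.p.le _ hV) l))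
  have := s.alpha hα hb f.p hV f.hW i.symm (f.symm.le.trans O_fix) (nf hb f.o) (f.symm.le.trans e)
    (nf hc (e0.trans f.o)) ne (f'.symm.le.trans O_fix) fun l => n₁ (k V hV l).symm
  rw [s.eq_O ne (s.syl b a hb.symm) (hα _ _ hb ▸ e), ← hα _ _ hb] at this
  exact n₂ (k V₁ f.hV (f.le.trans this)).symm

theorem alpha_two (s : SB N q) (hα : ∀ a b, a ≠ b → O N a b = O N b a) (hb : a ≠ b) : q = 2 := by
  by_contra hq
  obtain ⟨P, L, V, W, f⟩ := s.fl hb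
  obtain ⟨V₁, hV₁, i₁, n₁, -⟩ := f.p.symm.three f.hW V V
  obtain ⟨V₂, hV₂, i₂, n₂, m₂⟩ := f.p.symm.three f.hW V V₁
  obtain ⟨V₃, hV₃, i₃, n₃, m₃, l₃⟩ := f.p.symm.four hq f.hW V V₁ V₂
  obtain ⟨d₁, -, f₁, k₁⟩ := s.pick hb f.p hV₁ f.hW i₁.symm
  obtain ⟨d₂, -, f₂, k₂⟩ := s.pick hb f.p hV₂ f.hW i₂.symm
  obtain ⟨d₃, -, f₃, k₃⟩ := s.pick hb f.p hV₃ f.hW i₃.symm
  have a : d₁ ≠ d₂ := fun e => m₂ (k₁ _ hV₂ (e ▸ f₂.le.trans O_fix))
  exact l₃ (k₂ _ hV₃ (s.alpha_fib hα a (fun e => m₃ (k₁ _ hV₃ (e ▸ f₃.le.trans O_fix)))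
    (s.alpha hα hb f.p f.hV f.hW f.i (f₁.symm.le.trans O_fix) (fun l => n₁ (k₁ V f.hV l).symm)
      (f₂.symm.le.trans O_fix) (fun l => n₂ (k₂ V f.hV l).symm) a (f₃.symm.le.trans O_fix)
      fun l => n₃ (k₃ V f.hV l).symm) ▸ f₃.le.trans O_fix))

theorem false (s : SB N q) (h : a ≠ b) : False := by
  obtain ⟨rfl, fib⟩ : q = 2 ∧ ∀ c, a ≠ c → ∀ d, a ≠ d → O N a c ≤ stabilizer G d → c = d := by
    by_cases e : O N a b = O N b a
    · have hα : ∀ x y, x ≠ y → O N x y = O N y x := fun x y n => by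
        obtain ⟨g, rfl, rfl⟩ := s.two _ _ _ _ h n
        rw [← s.cjO, ← s.cjO, e]
      exact ⟨s.alpha_two hα h, fun c hc d hd => s.alpha_fib hα hc hd⟩
    obtain rfl := s.beta_two h e
    refine ⟨rfl, fun c hc d hd => s.beta_fib (fun x y n k => e ?_) hc hd⟩
    obtain ⟨g, rfl, rfl⟩ := s.two _ _ _ _ n h
    rw [← s.cjO, ← s.cjO, k]
  obtain ⟨P, L, V, W, f⟩ := s.fl h
  have c8 : Nat.card (O N a b) = 8 := by rw [f.o, f.p.card_sup f.hV f.hW f.i]; rfl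
  have o : ∀ y : G, y • a = a → y • b = b → y ∈ 𝐍[V ⊔ W] := fun y h1 h2 => f.o ▸ s.nO h1 h2
  have m : ∀ y : G, y • a = a → y • b = b → cj(y, V) = V → y ∈ O N a b := fun y h1 h2 e => by
    obtain ⟨u, hu, k⟩ := f.p.lem2 (s.nN h1) f.hV f.hW f.i (cj_eq_iff.1 e)
      (f.p.normW f.hV f.hW f.i (o y h1 h2) (cj_eq_iff.1 e))
    rw [eq_inv_of_mul_eq_one_right (s.K_one h k (by rw [mul_smul, h2, O_fix (f.o.ge hu)]))]
    exact inv_mem (f.o.ge hu)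
  have orb : ∀ H : Subgroup G, N a ≤ H → H ≤ stabilizer G a →
      Nat.card H = {c | c ≠ a}.ncard * Nat.card ↥(H ⊓ stabilizer G b) := fun H h1 h2 => by
    rw [card_orb H b]
    congr 2
    refine Set.Subset.antisymm ?_ fun c hc => ?_
    · rintro _ ⟨n, hn, rfl⟩ k
      exact h (smul_left_cancel n ((h2 hn).trans k.symm))
    obtain ⟨n, hn, e⟩ := s.surj h (s.syl a c hc.symm)
    exact ⟨n, h1 hn, fib _ (fun k => h (smul_left_cancel n ((s.fix a hn).trans k))) c hc.symm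
      (e ▸ O_fix)⟩
  have e1 := orb _ le_rfl (s.fix a)
  rw [show N a ⊓ stabilizer G b = O N a b from le_antisymm (fun y hy => m y (s.fix a hy.1) hy.2
    ((f.p.cj_eq_or f.hV f.hW f.i (o y (s.fix a hy.1) hy.2)).resolve_right fun e =>
      f.p.notMem (f.p.conj V f.hV y hy.1) (e ▸ f.hW))) (le_inf O_le O_fix), c8] at e1
  have e2 := f.p.ord
  have e3 := ncard_ne a
  have e4 := orb _ (s.fix a) le_rfl
  have e5 := s.card_eq (M := ⊤) (fun e => f.p.ne_bot f.hV (le_bot_iff.1 (e ▸ le_top))) a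
  have e6 := card_image (stabilizer G a ⊓ stabilizer G b) 𝐍[V] (fun y => cj(y, V)) fun x y => by
    rw [← cj_eq_iff, cj_mul, ← cj_inj (g := x) (R := V), cj_cj_inv, eq_comm]
  rw [show stabilizer G a ⊓ stabilizer G b ⊓ 𝐍[V] = O N a b from le_antisymm
    (fun y hy => m y hy.1.1 hy.1.2 (cj_eq_iff.2 hy.2)) (le_inf (le_inf s.O_fix' O_fix)
    (f.o ▸ f.p.sup_le_norm f.hV f.hW f.i)), c8] at e6
  have e7 := (Set.ncard_le_ncard (t := {V, W}) (s := (fun y => cj(y, V)) ''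
    (stabilizer G a ⊓ stabilizer G b : Subgroup G)) (by
      rintro _ ⟨y, hy, rfl⟩; exact f.p.cj_eq_or f.hV f.hW f.i (o y hy.1 hy.2))).trans
    (Set.ncard_insert_le V {W})
  have e8 := Nat.card_pos (α := ↥(stabilizer G a ⊓ stabilizer G b))
  rw [card_top, top_inf_eq] at e5
  rw [Set.ncard_singleton] at e7
  norm_num at e2
  have e9 : {c | c ≠ a}.ncard = 21 := by omega
  rw [e9] at e3 e4
  rw [← e3] at e5
  exact s.no22 e3.symm (by omega)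

end SB

end Cfsg.Agent.PL3
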