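import Mathlib
import Cfsg.Agent.PL3.CaseB

/-! The parabolic case: lines and planes. -/

set_option autoImplicit false
set_option linter.unusedSectionVars false

namespace Cfsg.Agent.PL3

open Subgroup Cfsg Cfsg.Agent.PLocal.Amb Cfsg.Agent.WTI MulAction

variable {G Ω : Type*} [Group G] [Finite G] [Finite Ω] [MulAction G Ω]

structure SA (N : Ω → Subgroup G) (q : ℕ) (P L : Ω → Set (Subgroup G)) : Prop extends St N q where
  p : ∀ a, Pl (N a) q (P a) (L a)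
  mem : ∀ a b, a ≠ b → O N a b ∈ P a
  lines : ∀ a b, a ≠ b → ∀ W ∈ L a, I (O N a b) W → W ≤ stabilizer G b

variable {N : Ω → Subgroup G} {q : ℕ} {a b c d : Ω} {g u w x y : G} {P L : Ω → Set (Subgroup G)}
  {V W V' W' : Subgroup G}

theorem St.exists_ne (s : St N q) (a : Ω) : ∃ b, a ≠ b :=
  (s.exists_fix (a := a) IsPGroup.of_bot bot_le).imp fun _ h => h.1.symm

theorem St.exists_SA (s : St N q) : ∃ P L, SA N q P L := by
  have n : ∀ x y, x ≠ y → ¬ IsSyl 2 (O N x y) (N x) := fun x y h e =>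
    SB.false ⟨s, fun a b k => by
      obtain ⟨g, rfl, rfl⟩ := s.two _ _ _ _ h k
      rw [← s.cjO, ← s.cjN]; exact e.cj g⟩ h
  have key : ∀ a, ∃ P L, Pl (N a) q P L ∧ ∀ b, a ≠ b → O N a b ∈ P ∧
      ∀ W ∈ L, I (O N a b) W → W ≤ stabilizer G b := fun a => by
    obtain ⟨P, L, p⟩ := s.pl a
    have t := fun b h => (s.tricho (b := b) h p).resolve_left (n a b h)
    by_cases h1 : ∀ b, a ≠ b → O N a b ∈ P
    · exact ⟨P, L, p, fun b h => (t b h).resolve_right fun e => p.notMem (h1 b h) e.1⟩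
    by_cases h2 : ∀ b, a ≠ b → O N a b ∈ L
    · exact ⟨L, P, p.symm, fun b h => (t b h).resolve_left fun e => p.notMem e.1 (h2 b h)⟩
    push Not at h1 h2
    obtain ⟨c, hc, h1⟩ := h1
    obtain ⟨b, hb, h2⟩ := h2
    obtain ⟨g, g1, rfl⟩ := s.two _ _ _ _ hb hc
    have e := ((t _ hb).resolve_right fun e => h2 e.1).1
    have e' := ((t _ hc).resolve_left fun e => h1 e.1).1
    have k : ∀ x, O N a (g • x) = cj(g, O N a x) := fun x => by rw [s.cjO, g1]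
    have k' : ∀ x, x ≠ a → g • x ≠ a := fun x h e => h (smul_left_cancel g (e.trans g1.symm))
    rw [k] at e'
    have l1 := Set.ncard_le_ncard_of_injOn (s := {x | x ≠ a ∧ O N a x ∈ P})
      (t := {x | x ≠ a ∧ O N a x ∈ L}) (g • ·) (fun x h => ⟨k' x h.1, k x ▸ p.swapP (s.nN g1) e e' h.2⟩)
      fun _ _ _ _ => smul_left_cancel g
    have l2 := Set.ncard_le_ncard_of_injOn (s := {x | x ≠ a ∧ O N a x ∈ L})
      (t := {x | x ≠ a ∧ O N a x ∈ P}) (g • ·) (fun x h => ⟨k' x h.1, k x ▸ p.swapL (s.nN g1) e e' h.2⟩)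
      fun _ _ _ _ => smul_left_cancel g
    have l3 := Set.ncard_union_eq (s := {x | x ≠ a ∧ O N a x ∈ P}) (t := {x | x ≠ a ∧ O N a x ∈ L})
      (Set.disjoint_left.2 fun x h h' => p.notMem h.2 h'.2)
    rw [show {x | x ≠ a ∧ O N a x ∈ P} ∪ {x | x ≠ a ∧ O N a x ∈ L} = {x | x ≠ a} from
      Set.Subset.antisymm (fun x h => h.elim (·.1) (·.1)) fun x h =>
        (t x (Ne.symm h)).imp (⟨h, ·.1⟩) (⟨h, ·.1⟩)] at l3
    have := ncard_ne a
    obtain ⟨r, hr⟩ := s.even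
    omega
  choose P L h using key
  exact ⟨P, L, s, fun a => (h a).1, fun a b k => ((h a).2 b k).1, fun a b k => ((h a).2 b k).2⟩

/-- fixed points -/
def Fx (Ω : Type*) [MulAction G Ω] (A : Subgroup G) : Set Ω := {c | A ≤ stabilizer G c}

theorem Fx.cj {A : Subgroup G} (h : c ∈ Fx Ω A) (g : G) : g • c ∈ Fx Ω cj(g, A) :=
  (cj_mono g h).trans (cj_stab g c).le

theorem Fx.nrm {A : Subgroup G} (h : c ∈ Fx Ω A) (hg : g ∈ 𝐍[A]) : g • c ∈ Fx Ω A :=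
  cj_of_mem_normalizer hg ▸ Fx.cj h g

theorem ncard_Fx_cj (g : G) (A : Subgroup G) : (Fx Ω cj(g, A)).ncard = (Fx Ω A).ncard :=
  (Set.ncard_congr (fun c _ => g • c) (fun _ h => Fx.cj h g) (fun _ _ _ _ => smul_left_cancel g)
    fun c h => ⟨g⁻¹ • c, cj_inv_cj g A ▸ Fx.cj h g⁻¹, smul_inv_smul g c⟩).symm

theorem Fx_O : b ∈ Fx Ω (O N a b) := O_fix

namespace SA

theorem FxP (s : SA N q P L) (hV : V ∈ P a) : a ∈ Fx Ω V := ((s.p a).le V hV).trans (s.fix a)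

theorem FxL (s : SA N q P L) (hW : W ∈ L a) : a ∈ Fx Ω W := ((s.p a).d.le W hW).trans (s.fix a)

theorem onO (s : SA N q P L) (h : a ≠ b) (hW : W ∈ L a) (hw : w ∈ W) (w1 : w ≠ 1) (e : w • b = b) :
    I (O N a b) W := by
  obtain ⟨V, hV, k⟩ := (s.p a).centre hW hw w1
  exact ((s.p a).norm V hV _ (s.mem a b h) W hW w k hw w1).1 (s.nO (s.FxL hW hw) e)

theorem onO' (s : SA N q P L) (h : a ≠ b) (hW : W ∈ L a) (e : b ∈ Fx Ω W) : I (O N a b) W := by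
  obtain ⟨w, hw, -, w1⟩ := (s.p a).symm.refl hW
  exact s.onO h hW hw w1 (e hw)

theorem fixW (s : SA N q P L) (hW : W ∈ L a) (hw : w ∈ W) (w1 : w ≠ 1) (e : w • b = b) :
    b ∈ Fx Ω W := by
  by_cases h : a = b
  · exact h ▸ s.FxL hW
  · exact s.lines a b h W hW (s.onO h hW hw w1 e)

theorem eqO (s : SA N q P L) (h : a ≠ b) (hV : V ∈ P a) (e : b ∈ Fx Ω V) : O N a b = V := by
  by_contra ne
  have p := s.p a
  obtain ⟨W₁, hW₁, i₁, -⟩ := p.three hV V V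
  obtain ⟨W₂, hW₂, i₂, n, -⟩ := p.three hV W₁ W₁
  have k : ∀ W ∈ L a, I V W → I (O N a b) W := fun W hW ⟨w, a, b, c⟩ => s.onO h hW b c (e a)
  exact n (p.uniq _ (s.mem a b h) V hV _ hW₂ _ hW₁ ne (k _ hW₂ i₂) i₂ (k _ hW₁ i₁) i₁)

theorem sub (s : SA N q P L) (_hV : V ∈ P a) (hW : W ∈ L a) (i : I V W) (e : c ∈ Fx Ω V) :
    c ∈ Fx Ω W := by
  obtain ⟨w, a, b, k⟩ := i
  exact s.fixW hW b k (e a)

theorem surj (s : SA N q P L) (hV : V ∈ P a) : ∃ c, a ≠ c ∧ O N a c = V := by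
  obtain ⟨b, h⟩ := s.exists_ne a
  obtain ⟨n, hn, e⟩ := (s.p a).tr _ (s.mem a b h) V hV
  exact ⟨n • b, fun k => h (smul_left_cancel n ((s.fix a hn).trans k)), by
    rw [← e, s.cjO, s.fix a hn]⟩

theorem cjP (s : SA N q P L) (hV : V ∈ P a) (g : G) : cj(g, V) ∈ P (g • a) := by
  obtain ⟨c, h, rfl⟩ := s.surj hV
  exact s.cjO g a c ▸ s.mem _ _ fun e => h (smul_left_cancel g e)

theorem cjL (s : SA N q P L) (hW : W ∈ L a) (g : G) : cj(g, W) ∈ L (g • a) := by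
  refine ((s.p _).mem_or (s.cjN g a ▸ cj_mono g ((s.p a).d.le W hW)) (by
    rintro _ ⟨x, hx, rfl⟩; rw [← map_mul, (s.p a).d.sq W hW x hx, map_one])
    ((card_cj _ _).trans ((s.p a).d.card W hW))).resolve_left fun e => (s.p a).notMem ?_ hW
  simpa only [cj_inv_cj, inv_smul_smul] using s.cjP e g⁻¹

theorem symm (s : SA N q P L) (h : a ≠ b) : O N a b = O N b a := by
  by_contra hc
  have k : ∀ x y, x ≠ y → O N y x ≤ 𝐂[N x] := fun x y n t ht => by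
    have p := s.p x
    have hV := s.mem x y n
    have nn : ∀ g : G, g • x = x → g • y = y → g ∈ 𝐍[O N x y ⊓ O N y x] := fun g a b =>
      le_normalizer_inf (zpowers_le.2 (s.nO a b)) (zpowers_le.2 (s.nO b a)) (mem_zpowers g)
    have D := (p.irr hV inf_le_left fun W hW i w hw =>
      nn w (s.FxL hW hw) (s.lines x y n W hW i hw)).resolve_right fun e => by
        obtain ⟨g, rfl, rfl⟩ := s.two _ _ _ _ n h
        refine hc (by rw [← s.cjO, ← s.cjO, eq_of_le_of_card_ge (e.ge.trans inf_le_right)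
          (((s.p y).card _ (s.mem y x n.symm)).trans (p.card _ hV).symm).le])
    have c : ∀ w ∈ N x, w • y = y → w * t = t * w := fun w hw e => by
      rw [← mul_inv_eq_iff_eq_mul, ← mul_inv_eq_one]
      have m := cm_mem_of_norm (s.nO e (s.fix x hw)) ht
      exact (eq_bot_iff_forall _).1 D _ ⟨le_pCoreOf (R := O N y x ⊓ N x) O_pg.to_inf_left
        (le_inf inf_le_right (inf_le_left.trans s.O_fix')) (le_normalizer_inf
          (fun g hg => s.nO hg.2 (s.fix x hg.1)) (inf_le_left.trans le_normalizer))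
        ⟨m, cm_mem_of_norm' hw (s.nN (O_fix ht))⟩, m⟩
    obtain ⟨v, hv, e⟩ := p.lemP (s.nN (O_fix ht)) hV fun w hw => c w (O_le hw) (O_fix hw)
    have l : ∀ W ∈ L x, I (O N x y) W → v ∈ W := fun W hW i => by
      obtain ⟨w, hw, m⟩ := SetLike.not_le_iff_exists.1 (p.symm.not_le hW hV)
      refine (p.nc hV hW i hv hw ?_).resolve_right m
      have e1 := e w (p.d.le W hW hw)
      rw [mul_assoc, ← c w (p.d.le W hW hw) (s.lines x y n W hW i hw), ← mul_assoc, ← mul_assoc,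
        mul_left_inj] at e1
      exact e1.symm
    obtain ⟨W₁, hW₁, i₁, -⟩ := p.three hV ⊥ ⊥
    obtain ⟨W₂, hW₂, i₂, m, -⟩ := p.three hV W₁ W₁
    rwa [show v = 1 from by_contra fun v1 => m (p.d.ti _ hW₂ _ hW₁ ⟨v, l _ hW₂ i₂, l _ hW₁ i₁, v1⟩),
      one_mul] at e
  obtain ⟨n, hn, m⟩ := s.moves h
  have e : O N b a ≤ N (n • b) := by
    rw [← cj_of_mem_normalizer (centralizer_le_normalizer' _ (le_centralizer_iff.1 (k a b h) hn)), s.cjO]
    exact O_le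
  obtain ⟨z, hz, -, z1⟩ := (s.p b).refl (s.mem b a h.symm)
  exact z1 (s.cent (e hz) (k _ _ m ((s.eqO m.symm (s.mem b a h.symm) (e.trans (s.fix _))).ge hz)))

theorem mvP (s : SA N q P L) (hV : V ∈ P a) (e : c ∈ Fx Ω V) : V ∈ P c := by
  by_cases h : a = c
  · exact h ▸ hV
  · rw [← s.eqO h hV e, s.symm h]; exact s.mem _ _ (Ne.symm h)

theorem FxO (s : SA N q P L) : a ∈ Fx Ω (O N a b) := s.O_fix'

theorem eq_one (s : SA N q P L) (hV : V ∈ P a) (hy : y ∈ 𝐂[N a]) (e : ∀ c ∈ Fx Ω V, y • c = c) :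
    y = 1 := s.faith y fun c => by
  by_cases h : a = c
  · exact h ▸ s.fixC hy
  obtain ⟨n, hn, k⟩ := (s.p a).tr _ (s.mem a c h) V hV
  have := e _ (k ▸ Fx.cj Fx_O n)
  rwa [← mul_smul, ← hy n hn, mul_smul, smul_left_cancel_iff] at this

theorem mvL (s : SA N q P L) (hW : W ∈ L a) (e : c ∈ Fx Ω W) : W ∈ L c := by
  by_cases h : a = c
  · exact h ▸ hW
  have i := s.onO' h hW e
  have hV := s.mem a c h
  have hV' := s.mvP hV Fx_O
  generalize O N a c = V at *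
  have p := s.p a
  have p' := s.p c
  have nV := p.le_norm hV hW i
  obtain ⟨W', ⟨hW', i'⟩, n⟩ := WTI.exists_fixed (C := {W | W ∈ L c ∧ I V W})
    (by rw [p'.ncard_I hV']; exact p.even.add_one) (p.symm.pg hW) fun w hw W' h' =>
      ⟨p'.nL (s.nN (e hw)) hV' (nV hw) h'.1, h'.2.nrm (nV hw)⟩
  have c1 := (p.inf V hV W hW i).trans (p'.inf V hV' W' hW' i').symm
  have z : V ⊓ W' = V ⊓ W := by
    by_cases k : V ⊓ W' ≤ V ⊓ W
    · exact eq_of_le_of_card_ge k c1.le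
    obtain ⟨u, hu, k⟩ := SetLike.not_le_iff_exists.1 k
    refine (eq_of_le_of_card_ge (fun z hz => ?_) c1.ge).symm
    obtain ⟨w, hw, rfl⟩ := p.symm.exists_cm hW hV i.symm (mem_sup_right hu.1) (fun a => k ⟨hu.1, a⟩)
      ⟨hz.2, hz.1⟩
    exact cm_mem_of_norm (le_normalizer_inf nV n hw) hu
  refine (p'.mem_or (fun w hw => ?_) (p.d.sq W hW) (p.d.card W hW)).resolve_left fun k =>
    p.notMem hV (p'.ti _ hV' _ k i ▸ hW)
  obtain ⟨m, hm, -, k⟩ := p'.lemA (s.nN (e hw)) (p.d.sq W hW w hw) hV' hW' i' (nV hw) (n hw)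
    (z ▸ fun x hx => p.symm.comm hW hx.2 hw)
  rw [eq_inv_of_mul_eq_one_right (s.eq_one hV' k fun d hd => by
    rw [mul_smul, s.sub hV hW i hd hw]
    exact (sup_le hd (s.sub hV' hW' i' hd) : V ⊔ W' ≤ stabilizer G d) hm)]
  exact inv_mem ((p'.isSyl hV' hW' i').le hm)

theorem tiL (s : SA N q P L) (hW : W ∈ L a) (hW' : W' ∈ L b) (i : I W W') : W = W' := by
  obtain ⟨z, h1, h2, h3⟩ := i
  exact (s.p a).d.ti W hW W' (s.mvL hW' (s.fixW hW' h2 h3 (s.FxL hW h1))) ⟨z, h1, h2, h3⟩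

/-- two planes through a point meet in a line -/
theorem meet (s : SA N q P L) (hW : W ∈ L a) (hW' : W' ∈ L a) (ne : W ≠ W') (hV : V ∈ P a)
    (i : I V W) (i' : I V W') (e : c ∈ Fx Ω W) (e' : c ∈ Fx Ω W') : c ∈ Fx Ω V := by
  by_cases h : a = c
  · exact h ▸ s.FxP hV
  rw [← (s.p a).d.uniq W hW W' hW' _ (s.mem a c h) V hV ne (s.onO' h hW e).symm (s.onO' h hW' e').symm
    i.symm i'.symm]
  exact Fx_O

theorem exists_k (s : SA N q P L) (a : Ω) : ∃ m, 1 ≤ m ∧ ∀ a, ∀ V ∈ P a, (Fx Ω V).ncard = m + 1 := by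
  obtain ⟨b, h⟩ := s.exists_ne a
  have := Set.ncard_le_ncard (s := {a, b}) (t := Fx Ω (O N a b)) (Set.pair_subset s.FxO Fx_O)
  rw [Set.ncard_pair h] at this
  refine ⟨(Fx Ω (O N a b)).ncard - 1, by omega, fun c V hV => ?_⟩
  obtain ⟨d, k, rfl⟩ := s.surj hV
  obtain ⟨g, rfl, rfl⟩ := s.two _ _ _ _ h k
  rw [← s.cjO, ncard_Fx_cj]; omega

variable {m : ℕ}

theorem cnt (s : SA N q P L) (hm : ∀ a, ∀ V ∈ P a, (Fx Ω V).ncard = m + 1) {T : Set (Subgroup G)}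
    (hT : T ⊆ P a) : {c | c ≠ a ∧ O N a c ∈ T}.ncard = T.ncard * m := by
  refine ncard_rel (fun c V => V = O N a c) (fun c h => ⟨_, ⟨h.2, rfl⟩, fun _ h => h.2⟩) fun V hV => ?_
  have := hm a V (hT hV)
  rw [← Set.ncard_sdiff_singleton_add_one (s.FxP (hT hV)), Nat.add_right_cancel_iff] at this
  rw [← this]
  congr 1; ext c
  exact ⟨fun h => ⟨h.2 ▸ Fx_O, h.1.1⟩, fun h => by
    have e := s.eqO (Ne.symm h.2) (hT hV) h.1
    exact ⟨⟨h.2, e ▸ hV⟩, e.symm⟩⟩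

theorem cardΩ (s : SA N q P L) (hm : ∀ a, ∀ V ∈ P a, (Fx Ω V).ncard = m + 1) (a : Ω) :
    Nat.card Ω = (q * q + q + 1) * m + 1 := by
  rw [← ncard_ne a, ← (s.p a).ncard_P, ← s.cnt hm (T := P a) le_rfl]
  congr 2; ext c
  exact ⟨fun h => ⟨h, s.mem a c (Ne.symm h)⟩, fun h => h.1⟩

theorem cardL (s : SA N q P L) (hm : ∀ a, ∀ V ∈ P a, (Fx Ω V).ncard = m + 1) (hW : W ∈ L a) :
    (Fx Ω W).ncard = (q + 1) * m + 1 := by
  rw [← Set.ncard_sdiff_singleton_add_one (s.FxL hW), ← (s.p a).symm.ncard_I hW,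
    ← s.cnt hm (T := {V | V ∈ P a ∧ I W V}) fun _ h => h.1]
  congr 2; ext c
  exact ⟨fun h => ⟨h.2, s.mem a c (Ne.symm h.2), (s.onO' (Ne.symm h.2) hW h.1).symm⟩,
    fun h => ⟨s.sub h.2.1 hW h.2.2.symm Fx_O, h.1⟩⟩

/-- a line of a plane missing a given point -/
theorem exists_line (s : SA N q P L) (hW : W ∈ L a) :
    ∃ b, ∃ V ∈ P b, W ∈ L b ∧ I V W ∧ a ∉ Fx Ω V := by
  obtain ⟨V, hV, i, -⟩ := (s.p a).d.join W hW W hW
  obtain ⟨b, h, rfl⟩ := s.surj hV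
  have hb := s.mvL hW (s.sub hV hW i.symm Fx_O)
  obtain ⟨V', hV', i', n, -⟩ := (s.p b).symm.three hb (O N b a) ⊥
  exact ⟨b, V', hV', hb, i'.symm, fun e => n (s.eqO h.symm hV' e).symm⟩

theorem injO (s : SA N q P L) (hV : V ∈ P b) (n : a ∉ Fx Ω V) (h1 : c ∈ Fx Ω V) (h2 : d ∈ Fx Ω V)
    (e : O N a c = O N a d) : c = d := by
  by_contra ne
  have k : a ≠ c := fun k => n (k ▸ h1)
  refine n ?_
  rw [← s.eqO ne (s.mvP hV h1) h2, s.eqO ne (s.mvP (s.mem a c k) Fx_O) (e ▸ Fx_O)]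
  exact s.FxO

theorem m_le (s : SA N q P L) (hm : ∀ a, ∀ V ∈ P a, (Fx Ω V).ncard = m + 1) (a : Ω) : m ≤ q := by
  obtain ⟨W, hW⟩ := (s.p a).symm.ne
  obtain ⟨b, V, hV, hb, i, n⟩ := s.exists_line hW
  have := Set.ncard_le_ncard_of_injOn (s := Fx Ω V) (t := {V | V ∈ P a ∧ I W V}) (O N a)
    (fun c h => have k : a ≠ c := fun k => n (k ▸ h)
      ⟨s.mem a c k, (s.onO' k hW (s.sub hV hb i h)).symm⟩) fun c h1 d h2 => s.injO hV n h1 h2
  rw [hm b V hV, (s.p a).symm.ncard_I hW] at this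
  omega

end SA

end Cfsg.Agent.PL3
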