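import Mathlib
import Cfsg.Agent.PL3.CaseA
import Cfsg.Agent.Char.Frobenius

/-! The parabolic case with long lines: affine space. -/

set_option autoImplicit false
set_option linter.unusedSectionVars false

namespace Cfsg.Agent.PL3

open Subgroup Cfsg Cfsg.Agent.PLocal.Amb Cfsg.Agent.WTI MulAction
open scoped Pointwise

variable {G Ω : Type*} [Group G] [Finite G] [Finite Ω] [MulAction G Ω]

theorem Tw.syl_stab (s : Tw G Ω) (hG : (⊤ : Subgroup G) ≠ ⊥) {k : ℕ} (hΩ : Nat.card Ω = 2 ^ k)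
    {S : Subgroup G} (hS : IsSyl 2 S ⊤) (c : Ω) :
    IsSyl 2 (S ⊓ stabilizer G c) (stabilizer G c) ∧ ∀ d, ∃ g ∈ S, g • c = d := by
  have e1 := s.card_eq hG c
  have e2 := card_orb S c
  have e3 := Grp.card_mul_relIndex (inf_le_right : S ⊓ stabilizer G c ≤ _)
  have e4 := Grp.card_mul_relIndex hS.le
  have e5 := hS.not_dvd_relIndex
  obtain ⟨j, hj⟩ := hS.pgrp.exists_card_eq
  obtain ⟨i, -, hi⟩ := (Nat.dvd_prime_pow Nat.prime_two).1 (hj ▸ Dvd.intro _ e2.symm)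
  have e6 := Set.ncard_le_card ((· • c) '' (S : Set G))
  rw [top_inf_eq, ← e4, e2, ← e3, hΩ, hi, mul_right_comm, mul_comm (Nat.card _), ← mul_assoc] at e1
  replace e1 := Nat.eq_of_mul_eq_mul_right Nat.card_pos e1
  rw [hi, hΩ] at e6
  obtain ⟨r, rfl⟩ := Nat.exists_eq_add_of_le ((Nat.pow_le_pow_iff_right (by omega)).1 e6)
  rw [pow_add, mul_assoc] at e1
  replace e1 := Nat.eq_of_mul_eq_mul_left (by positivity) e1
  obtain rfl : r = 0 := by_contra fun h => e5 (e1 ▸ (dvd_pow_self 2 h).mul_right _)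
  exact ⟨isSyl_of_not_dvd_relIndex hS.pgrp.to_inf_left inf_le_right fun h => e5 (e1 ▸ h.mul_left _),
    Set.eq_univ_iff_forall.1 ((Set.eq_univ_iff_ncard _).2 (hi.trans hΩ.symm))⟩

theorem Tw.regular (s : Tw G Ω) {K : Subgroup G} [hK : K.Normal] (h : K ≠ ⊥) (a : Ω)
    (h2 : ∀ g ∈ K, ∀ x y : Ω, x ≠ y → g • x = x → g • y = y → g = 1) :
    ∃ E : Subgroup G, E.Normal ∧ Nat.card E = Nat.card Ω ∧ (∀ x y : Ω, ∃ r ∈ E, r • x = y) ∧
      ∀ x : Ω, ∀ r ∈ E, r • x = x → r = 1 := by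
  obtain ⟨M, hM, -, c⟩ := Char.exists_frobenius_kernel (H := (stabilizer G a).subgroupOf K)
    fun g hg t ht k => Subtype.ext (h2 t t.2 a ((g : G)⁻¹ • a) (fun e => hg (by
      rw [eq_inv_smul_iff] at e; exact e)) ht (by
      have : ((g : G) * t * (g : G)⁻¹) • a = a := k
      rwa [mul_smul, mul_smul, ← eq_inv_smul_iff] at this))
  have m : ∀ x, x ∈ M.map K.subtype ↔ x ∈ K ∧ (x = 1 ∨ ∀ c : Ω, x • c ≠ c) := fun x => by
    have : ∀ x : K, x ∈ M ↔ (x : G) = 1 ∨ ∀ c : Ω, (x : G) • c ≠ c := fun x => by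
      rw [← SetLike.mem_coe, hM]
      have e : ∀ g : K, x ∈ MulAut.conj g • (stabilizer G a).subgroupOf K ↔
          (x : G) • (g : G) • a = (g : G) • a := fun g => by
        rw [Grp.mem_conj_smul_iff, mem_subgroupOf]; simp [mul_smul, inv_smul_eq_iff]
      refine or_congr (by simp) ⟨fun k c => ?_, fun k g => (e g).not.2 (k _)⟩
      obtain ⟨g, hg, rfl⟩ := s.trans h a c
      exact (e ⟨g, hg⟩).not.1 (k _)
    exact ⟨by rintro ⟨x, hx, rfl⟩; exact ⟨x.2, (this x).1 hx⟩, fun h => ⟨⟨x, h.1⟩, (this _).2 h.2, rfl⟩⟩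
  have n : (M.map K.subtype).Normal := ⟨fun x hx g => (m _).2 ⟨hK.conj_mem x ((m x).1 hx).1 g,
    ((m x).1 hx).2.imp (fun e => by simp [e]) fun k c e => k (g⁻¹ • c) (by
      rwa [mul_smul, mul_smul, ← eq_inv_smul_iff] at e)⟩⟩
  have e := c.card_mul_card
  rw [s.card_eq h a, Grp.card_subgroupOf, inf_comm] at e
  replace e := (card_subtype K M).trans (Nat.eq_of_mul_eq_mul_right Nat.card_pos e)
  refine ⟨_, n, e, s.trans fun k => ?_, fun x r hr k => ((m r).1 hr).2.resolve_right fun l => l x k⟩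
  rw [k, card_bot] at e
  have := (Nat.card_eq_one_iff_unique.1 e.symm).1
  exact h ((eq_bot_iff_forall _).2 fun g _ => s.faith g fun c => Subsingleton.elim _ _)

variable {N : Ω → Subgroup G} {m : ℕ} {a b c x y : Ω} {P L : Ω → Set (Subgroup G)}
  {V W V' W' W'' : Subgroup G}

structure SF (N : Ω → Subgroup G) (m : ℕ) (P L : Ω → Set (Subgroup G)) : Prop
    extends SA N (m + 1) P L where
  hm : ∀ a, ∀ V ∈ P a, (Fx Ω V).ncard = m + 1

/-- the points on lines through `x` missing the plane of `W` -/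
def Dm (N : Ω → Subgroup G) (W : Subgroup G) (x : Ω) : Set Ω :=
  insert x {y | y ≠ x ∧ O N x y ∉ O N x '' Fx Ω W}

namespace SF

theorem ncard_T (s : SF N m P L) (hW : W ∈ L a) (hx : x ∉ Fx Ω W) :
    (P x \ O N x '' Fx Ω W).ncard = m + 2 := by
  have ne : ∀ c ∈ Fx Ω W, x ≠ c := fun c h e => hx (e ▸ h)
  rw [Set.ncard_sdiff (by rintro _ ⟨c, h, rfl⟩; exact s.mem x c (ne c h)), (s.p x).ncard_P,
    Set.InjOn.ncard_image fun c h d h' e => by_contra fun n => ?_, s.cardL s.hm hW]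
  · exact Nat.sub_eq_of_eq_add (by ring)
  have k := s.mvL hW h
  have i := s.onO' n k h'
  exact n (s.injO (s.mem c d n) (fun l => hx (s.sub (s.mem c d n) k i l)) s.FxO Fx_O e)

theorem ncard_D (s : SF N m P L) (hW : W ∈ L a) (hx : x ∉ Fx Ω W) :
    (Dm N W x).ncard = (m + 2) * m + 1 := by
  rw [Dm, Set.ncard_insert_of_notMem fun h => h.1 rfl, ← s.ncard_T hW hx, ← s.cnt s.hm Set.sdiff_subset]
  congr 2; ext y
  exact ⟨fun h => ⟨h.1, s.mem x y h.1.symm, h.2⟩, fun h => ⟨h.1, h.2.2⟩⟩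

theorem orb_eq (s : SF N m P L) (hW : W ∈ L a) (hx : x ∉ Fx Ω W) :
    (· • x) '' (W : Set G) = Dm N W x := by
  have f : ∀ w ∈ W, w • x = x → w = 1 := fun w hw e => by_contra fun w1 => hx (s.fixW hW hw w1 e)
  refine Set.eq_of_subset_of_ncard_le ?_ ?_
  · rintro _ ⟨w, hw, rfl⟩
    refine or_iff_not_imp_left.2 fun (n : w • x ≠ x) => ⟨n, fun ⟨c, hc, e⟩ => hx ?_⟩
    have w1 : w ≠ 1 := fun e => n (by rw [e, one_smul])
    have k := s.mvL hW hc
    have l := s.mvP (s.mem x _ n.symm) (e ▸ Fx_O)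
    obtain ⟨V, hV, m⟩ := (s.p c).centre k hw w1
    refine s.sub l k (((s.p c).norm V hV _ l W k w m hw w1).1 (cj_eq_iff.1 ?_)) s.FxO
    rw [s.cjO, smul_smul, (s.p a).d.sq W hW w hw, one_smul, s.symm n]
  · have := card_orb W x
    rw [(eq_bot_iff_forall (W ⊓ stabilizer G x)).2 fun w hw => f w hw.1 hw.2, card_bot, mul_one,
      (s.p a).d.card W hW] at this
    rw [s.ncard_D hW hx, ← this]
    exact le_of_eq (by ring)

theorem par_eq (s : SF N m P L) (hW : W ∈ L a) (hW' : W' ∈ L x) (d : Disjoint (Fx Ω W) (Fx Ω W')) :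
    Fx Ω W' = Dm N W x := by
  refine Set.eq_of_subset_of_ncard_le (fun y hy => or_iff_not_imp_left.2 fun n =>
    ⟨n, fun ⟨c, hc, e⟩ => Set.disjoint_left.1 d hc (s.sub (s.mem x y (Ne.symm n)) hW'
      (s.onO' (Ne.symm n) hW' hy) (e ▸ Fx_O))⟩) ?_
  rw [s.ncard_D hW (Set.disjoint_right.1 d (s.FxL hW')), s.cardL s.hm hW']

theorem exists_par (s : SF N m P L) (hW : W ∈ L a) (hx : x ∉ Fx Ω W) :
    ∃ W' ∈ L x, Disjoint (Fx Ω W) (Fx Ω W') := by
  obtain ⟨V₁, V₂, h1, h2, n⟩ := (Set.one_lt_ncard_iff (s := P x \ O N x '' Fx Ω W)).1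
    (by rw [s.ncard_T hW hx]; omega)
  obtain ⟨W', hW', i₁, i₂⟩ := (s.p x).join _ h1.1 _ h2.1
  refine ⟨W', hW', Set.disjoint_left.2 fun c hc hc' => ?_⟩
  have k := s.mvL hW hc
  have k' := s.mvL hW' hc'
  obtain ⟨V, hV, j, j'⟩ := (s.p c).d.join _ k _ k'
  have nx : x ∉ Fx Ω V := fun e => hx (s.sub hV k j.symm e)
  have := Set.ncard_le_ncard_of_injOn (s := Fx Ω V) (t := {V | V ∈ P x ∧ I W' V} \ {V₁, V₂}) (O N x)
    (fun d hd => have n : x ≠ d := fun e => nx (e ▸ hd)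
      ⟨⟨s.mem x d n, (s.onO' n hW' (s.sub hV k' j'.symm hd)).symm⟩, fun e => e.elim
        (fun e => h1.2 ⟨d, s.sub hV k j.symm hd, e⟩) fun e => h2.2 ⟨d, s.sub hV k j.symm hd, e⟩⟩)
    fun _ a _ b => s.injO hV nx a b
  rw [s.hm c V hV, Set.ncard_sdiff (Set.pair_subset (s := {V | V ∈ P x ∧ I W' V})
    ⟨h1.1, i₁.symm⟩ ⟨h2.1, i₂.symm⟩),
    (s.p x).symm.ncard_I hW', Set.ncard_pair n] at this
  omega

theorem transN (s : SF N m P L) (hx : a ≠ x) (hy : a ≠ y) : ∃ g ∈ N a, g • x = y := by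
  have key : ∀ x y, a ≠ x → a ≠ y → O N a x ≠ O N a y → ∃ g ∈ N a, g • x = y := fun x y hx hy n => by
    have ne : x ≠ y := fun e => n (e ▸ rfl)
    have p := s.p x
    obtain ⟨W₀, hW₀, i, i'⟩ := p.join _ (s.mem x y ne) _ (s.mem x a hx.symm)
    obtain ⟨W, hW, j, n', -⟩ := p.three (s.mem x y ne) W₀ W₀
    obtain ⟨W', hW', d⟩ := s.exists_par (x := a) hW fun e => n' (p.uniq _ (s.mem x y ne) _
      (s.mem x a hx.symm) _ hW _ hW₀ (fun k => n (s.eqO hy (s.mem a x hx)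
        (by rw [s.symm hx, ← k]; exact Fx_O)).symm) j (s.onO' hx.symm hW e) i i')
    obtain ⟨w, hw, e⟩ := ((s.par_eq hW' hW d.symm).trans (s.orb_eq hW'
      (Set.disjoint_left.1 d (s.FxL hW))).symm).le (s.lines x y ne W hW j)
    exact ⟨w, (s.p a).d.le _ hW' hw, e⟩
  by_cases e : O N a x = O N a y
  · obtain ⟨W, hW⟩ := (s.p a).symm.ne
    obtain ⟨V, hV, -, n, -⟩ := (s.p a).symm.three hW (O N a x) ⊥
    obtain ⟨u, hu, rfl⟩ := s.surj hV
    obtain ⟨g, hg, rfl⟩ := key x u hx hu n.symm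
    obtain ⟨k, hk, rfl⟩ := key _ y hu hy (e ▸ n)
    exact ⟨k * g, mul_mem hk hg, mul_smul _ _ _⟩
  · exact key x y hx hy e

theorem cardΩ' (s : SF N m P L) (a : Ω) : Nat.card Ω = (m + 1) ^ 3 := by
  rw [s.cardΩ s.hm a]; ring

theorem gcd_eq (s : SF N m P L) (a : Ω) : Nat.gcd 3 m = 1 := by
  obtain ⟨b, h⟩ := s.exists_ne a
  have p := s.p a
  have e1 := card_orb (N a) b
  rw [show (· • b) '' (N a : Set G) = {c | c ≠ a} from Set.Subset.antisymm (by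
    rintro _ ⟨n, hn, rfl⟩ k
    exact h (smul_left_cancel n ((s.fix a hn).trans k.symm))) fun c hc => s.transN h (Ne.symm hc),
    Nat.eq_sub_of_add_eq (ncard_ne a), s.cardΩ' a] at e1
  have e2 := p.card_ge (s.mem a b h) (H := N a ⊓ stabilizer G b) (le_inf O_le O_fix)
    fun W hW i => le_inf (p.d.le W hW) (s.lines a b h W hW i)
  have e3 := p.ord
  rw [e1, Nat.add_sub_cancel, pow_two, ← mul_assoc, mul_comm _ (_ - 1), mul_assoc] at e3
  have q2 := p.two_le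
  replace e3 := Nat.eq_of_mul_eq_mul_left (Nat.sub_pos_of_lt (Nat.one_lt_pow (by omega) q2)) e3
  have e4 := Nat.card_pos (α := ↥(N a ⊓ stabilizer G b))
  have e5 := Nat.gcd_pos_of_pos_left m (show 0 < 3 by omega)
  rw [mul_comm, ← e3] at e2
  nlinarith

theorem eq_of_Fx (s : SF N m P L) (hW : W ∈ L a) (hW' : W' ∈ L a) (e : Fx Ω W = Fx Ω W') : W = W' := by
  by_contra n
  obtain ⟨V, hV, i, i'⟩ := (s.p a).d.join _ hW _ hW'
  have := Set.ncard_le_ncard (s := Fx Ω W) (t := Fx Ω V) fun c h =>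
    s.meet hW hW' n hV i.symm i'.symm h (e ▸ h)
  rw [s.hm a V hV, s.cardL s.hm hW] at this
  have := (s.p a).two_le
  nlinarith

theorem par_trans (s : SF N m P L) (hW : W ∈ L a) (hW' : W' ∈ L b) (hW'' : W'' ∈ L c)
    (h : W = W' ∨ Disjoint (Fx Ω W) (Fx Ω W')) (h' : W' = W'' ∨ Disjoint (Fx Ω W') (Fx Ω W'')) :
    W = W'' ∨ Disjoint (Fx Ω W) (Fx Ω W'') := by
  rcases h with rfl | h
  · exact h'
  rcases h' with rfl | h'
  · exact Or.inr h
  refine or_iff_not_imp_right.2 fun n => ?_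
  obtain ⟨x, h1, h2⟩ := Set.not_disjoint_iff.1 n
  exact s.eq_of_Fx (s.mvL hW h1) (s.mvL hW'' h2)
    ((s.par_eq hW' (s.mvL hW h1) h.symm).trans (s.par_eq hW' (s.mvL hW'' h2) h').symm)

theorem regular (s : SF N m P L) (a : Ω) :
    ∃ E : Subgroup G, E.Normal ∧ Nat.card E = Nat.card Ω ∧ (∀ x y : Ω, ∃ r ∈ E, r • x = y) ∧
      ∀ x : Ω, ∀ r ∈ E, r • x = x → r = 1 := by
  let K : Subgroup G :=
    { carrier := {g | ∀ a, ∀ W ∈ L a, W = cj(g, W) ∨ Disjoint (Fx Ω W) (Fx Ω cj(g, W))}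
      one_mem' := fun _ W _ => Or.inl (cj_one W).symm
      mul_mem' := fun {g k} hg hk a W hW => cj_mul g k W ▸ s.par_trans hW (s.cjL hW k)
        (s.cjL (s.cjL hW k) g) (hk a W hW) (hg _ _ (s.cjL hW k))
      inv_mem' := fun {g} hg a W hW => by
        have := hg _ _ (s.cjL hW g⁻¹)
        rw [cj_cj_inv] at this
        exact this.imp Eq.symm fun d => d.symm }
  have : K.Normal := ⟨fun k hk g a W hW => by
    rcases hk _ _ (s.cjL hW g⁻¹) with e | e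
    · exact Or.inl (by rw [cj_mul, cj_mul, ← e, cj_cj_inv])
    refine Or.inr (Set.disjoint_left.2 fun c h h' => Set.disjoint_left.1 e (Fx.cj h g⁻¹) ?_)
    simpa only [cj_mul, cj_inv_cj] using Fx.cj h' g⁻¹⟩
  refine s.toTw.regular (K := K) (fun e => ?_) a fun g hg x y n hx hy => s.faith g fun c => ?_
  swap
  · have k := (s.p x).symm.triv (s.nN hx) fun W hW => cj_eq_iff.1 ((hg x W hW).resolve_right fun d =>
      Set.disjoint_left.1 d (s.FxL hW) (hx ▸ Fx.cj (s.FxL hW) g)).symm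
    by_cases h : x = c
    · exact h ▸ hx
    obtain ⟨r, hr, rfl⟩ := s.transN n h
    exact fix_of_comm (k r hr) hy
  obtain ⟨S, hS⟩ := exists_isSyl 2 (⊤ : Subgroup G)
  obtain ⟨n, -, hn⟩ := (s.p a).pow
  obtain ⟨V₀, hV₀⟩ := (s.p a).ne
  have st := s.toTw.syl_stab (fun e => (s.p a).ne_bot hV₀ (le_bot_iff.1 (e ▸ le_top))) (k := n * 3)
    (by rw [s.cardΩ' a, hn, pow_mul]) hS
  have pt : ∀ c, ∃ V ∈ P c, V ≤ S := fun c => by
    obtain ⟨V, hV, W, -, -, k⟩ := (s.p c).flag ((st c).1.inf_of_le (s.fix c) fun g hg => s.nN hg)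
    exact ⟨V, hV, (le_sup_left.trans k.ge).trans (inf_le_left.trans inf_le_left)⟩
  obtain ⟨V₁, hV₁, l₁⟩ := pt a
  obtain ⟨t, ht, t1, t2⟩ : ∃ t ∈ S ⊓ 𝐂[S], t ≠ 1 ∧ t * t = 1 := by
    obtain ⟨t, ht⟩ := exists_prime_orderOf_dvd_card' (G := ↥(S ⊓ 𝐂[S])) 2
      (hS.pgrp.to_inf_left.card_eq_or_dvd.resolve_left fun k => inf_centralizer_ne_bot hS.pgrp hS.pgrp
        le_normalizer (fun e => (s.p a).ne_bot hV₁ (le_bot_iff.1 (e ▸ l₁))) (card_eq_one.1 k))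
    rw [← orderOf_coe] at ht
    exact ⟨t, t.2, fun k => by simp [k] at ht, by rw [← pow_two, ← ht, pow_orderOf_eq_one]⟩
  refine t1 ((eq_bot_iff_forall _).1 e t fun x W hW => or_iff_not_imp_right.2 fun d => by_contra
    fun ne => ?_)
  obtain ⟨c, h1, h2⟩ := Set.not_disjoint_iff.1 d
  have k1 := s.mvL hW h1
  have k2 := s.mvL (s.cjL hW t) h2
  obtain ⟨V, hV, i, i'⟩ := (s.p c).d.join _ k1 _ k2
  have tc : c ≠ t • c := fun k => t1 (s.faith t fun d => by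
    obtain ⟨g, hg, rfl⟩ := (st c).2 d
    exact fix_of_comm (ht.2 g hg) k.symm)
  obtain ⟨V', hV', l⟩ := pt c
  have e1 := s.eqO tc hV (s.meet k1 k2 ne hV i.symm i'.symm (by
    simpa only [← cj_mul, t2, cj_one] using Fx.cj h2 t) (Fx.cj h1 t))
  have e2 := s.eqO tc hV' fun v hv => fix_of_comm (ht.2 v (l hv)).symm (s.FxP hV' hv)
  obtain ⟨z, z1, z2, z3⟩ := i
  exact ne (s.tiL hW (s.cjL hW t) ⟨z, z1, mem_cj_of_comm z1 (ht.2 z (l (e2 ▸ e1 ▸ z2))), z3⟩)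

end SF

end Cfsg.Agent.PL3
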