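import Mathlib
import Cfsg.Agent.PL3.Defs
import Cfsg.Agent.LnT.Md
import Cfsg.Agent.Class.LinearBasic

/-! `L₃(2ⁿ)` carries a plane of elation groups. -/

set_option autoImplicit false
set_option linter.unusedSectionVars false

namespace Cfsg.Agent.PL3

open Matrix Subgroup Cfsg.Agent.PLocal.Amb Cfsg.Agent.LnT

variable {F G : Type*} [Field F] [CharP F 2] [Group G]

local notation "SL3" => SpecialLinearGroup (Fin 3) F

theorem tv_rigid {u φ u' φ' : Fin 3 → F} (h : φ ⬝ᵥ u = 0) (h' : φ' ⬝ᵥ u' = 0)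
    (e : tv u φ = tv u' φ') (n : tv u φ ≠ 1) : ∃ a : F, a ≠ 0 ∧ u = a • u' := by
  obtain ⟨x, hx⟩ := exists_dot0 fun e : φ = 0 => n ((tv_eq_one h).2 (Or.inr e))
  have := (tv_eq_iff h h').1 e x
  rw [dotProduct_comm, hx, one_smul] at this
  exact ⟨_, fun e => n ((tv_eq_one h).2 (Or.inl (by rw [this, e, zero_smul]))), this⟩

theorem dim3 {u u' φ φ' : Fin 3 → F} (hu : u ≠ 0) (n : ∀ a : F, u' ≠ a • u) (hφ : φ ≠ 0)
    (a : φ ⬝ᵥ u = 0) (b : φ ⬝ᵥ u' = 0) (c : φ' ⬝ᵥ u = 0) (d : φ' ⬝ᵥ u' = 0) : ∃ s : F, φ' = s • φ := by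
  obtain ⟨x, hx⟩ := exists_dot0 hφ
  refine smul_of_dot fun y hy => ?_
  by_contra hc
  have li : LinearIndependent F ![x, y, u', u] := by
    rw [Fintype.linearIndependent_iff]
    intro g hg
    simp only [Fin.sum_univ_four, cons_val_zero, cons_val_one, cons_val] at hg
    have e0 := congrArg (φ ⬝ᵥ ·) hg
    simp [a, b, dotProduct_comm φ x, dotProduct_comm φ y, hx, hy] at e0
    have e1 := congrArg (φ' ⬝ᵥ ·) hg
    simp [c, d, e0, dotProduct_comm φ' y, hc] at e1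
    rw [e0, e1, zero_smul, zero_smul, zero_add, zero_add, add_comm] at hg
    obtain ⟨e3, e2⟩ := indep_eq hu n hg
    intro i; fin_cases i <;> assumption
  simpa using li.fintype_card_le_finrank

theorem inv_tv {g : SL3} (h : g * g = 1) : ∃ u φ, φ ⬝ᵥ u = 0 ∧ g = tv u φ := by
  by_cases h0 : ∀ x, dl g *ᵥ x = 0
  · exact ⟨0, 0, by simp, eq_tv (by simp) (by simpa using h0)⟩
  push Not at h0
  obtain ⟨x, hx⟩ := h0
  obtain ⟨θ, hθ⟩ := exists_dot0 hx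
  have d : ∀ y, (θ ᵥ* dl g) ⬝ᵥ dl g *ᵥ y = 0 := fun y => by rw [vecMul_dot, dl_dl h, dotProduct_zero]
  obtain ⟨ρ, hρ⟩ := exists_dot_of_range (A := dl g) hx fun χ hχ => dext fun y => by
    by_contra hc
    obtain ⟨ω, a, b⟩ := exists_dot1 (e := dl g *ᵥ x) (u := dl g *ᵥ y) fun a e => hc (by
      rw [vecMul_dot, e, dotProduct_smul, hχ]; simp)
    obtain ⟨s, e⟩ := dim3 hx (u' := dl g *ᵥ y) (fun a e => hc (by
      rw [vecMul_dot, e, dotProduct_smul, hχ]; simp)) (φ := θ ᵥ* dl g) (φ' := ω ᵥ* dl g)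
      (fun e => one_ne_zero (by rw [← hθ, ← vecMul_dot, e, zero_dotProduct])) (d x) (d y)
      (by rw [vecMul_dot, dl_dl h, dotProduct_zero]) (by rw [vecMul_dot, dl_dl h, dotProduct_zero])
    have e1 := congrArg (· ⬝ᵥ x) e
    have e2 := congrArg (· ⬝ᵥ y) e
    simp only [smul_dotProduct, vecMul_dot, a, b, hθ, smul_eq_mul, mul_one] at e1 e2
    simp [← e1] at e2
  refine ⟨_, ρ, ?_, eq_tv ?_ hρ⟩ <;>
    exact smul_left_injective F hx (by simpa [dl_dl h] using (hρ (dl g *ᵥ x)).symm)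

/-- elations with centre `u` -/
def pt (ψ : SL3 →* G) (u : Fin 3 → F) : Subgroup G where
  carrier := {x | ∃ φ, φ ⬝ᵥ u = 0 ∧ ψ (tv u φ) = x}
  one_mem' := ⟨0, by simp, by rw [tv_zero, map_one]⟩
  mul_mem' := by
    rintro _ _ ⟨φ, a, rfl⟩ ⟨χ, b, rfl⟩
    exact ⟨φ + χ, by simp [a, b], by rw [tv_add a b, map_mul]⟩
  inv_mem' := by
    rintro _ ⟨φ, a, rfl⟩
    exact ⟨φ, a, by rw [← map_inv, tv_inv]⟩

def Pt (ψ : SL3 →* G) : Set (Subgroup G) := {V | ∃ u, u ≠ 0 ∧ pt ψ u = V}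

/-- the dual model -/
def du (ψ : SL3 →* G) : SL3 →* G := ψ.comp tr.toMonoidHom

theorem du_du (ψ : SL3 →* G) : du (du ψ) = ψ := MonoidHom.ext fun g => congrArg ψ (tr_tr g)

theorem du_tv (ψ : SL3 →* G) (u φ : Fin 3 → F) : du ψ (tv φ u) = ψ (tv u φ) :=
  congrArg ψ (tr_tv φ u)

theorem pt_smul (ψ : SL3 →* G) {a : F} (ha : a ≠ 0) (u : Fin 3 → F) : pt ψ (a • u) = pt ψ u := by
  have : ∀ {a : F} (u : Fin 3 → F), a ≠ 0 → pt ψ (a • u) ≤ pt ψ u := fun {a} u ha => by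
    rintro _ ⟨φ, h, rfl⟩
    have h' : φ ⬝ᵥ u = 0 := by simpa [ha] using h
    exact ⟨a • φ, by simp [h'], by rw [tv_smul _ h']⟩
  refine le_antisymm (this u ha) ?_
  simpa [smul_smul, ha] using this (a • u) (inv_ne_zero ha)

theorem cj_pt (ψ : SL3 →* G) (g : SL3) (u : Fin 3 → F) : cj(ψ g, pt ψ u) = pt ψ (g.1 *ᵥ u) := by
  have : ∀ (g : SL3) u, cj(ψ g, pt ψ u) ≤ pt ψ (g.1 *ᵥ u) := fun g u => cj_le_iff_forall.2 (by
    rintro _ ⟨φ, h, rfl⟩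
    exact ⟨_, (dot_conj g φ u).trans h, by rw [← tv_conj, map_mul, map_mul, map_inv]⟩)
  refine le_antisymm (this g u) (le_cj_iff.2 ?_)
  simpa only [inv_mulVec_mulVec, map_inv] using this g⁻¹ (g.1 *ᵥ u)

theorem half [Fintype F] (ψ : SL3 →* G) (hk : ∀ g, ψ g = 1 ↔ g ∈ center SL3) :
    Half ψ.range (Nat.card F) (Pt ψ) (Pt (du ψ)) := by
  have inj : ∀ {u φ u' φ'}, ψ (tv u φ) = ψ (tv u' φ') → tv u φ = tv u' φ' := fun {u φ u' φ'} e => by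
    have c := (hk (tv u φ * (tv u' φ')⁻¹)).1 (by rw [map_mul, e, map_inv, mul_inv_cancel])
    refine mul_inv_eq_one.1 (eq_one_of_center c (k := 1) ?_)
    have := mem_center_iff.1 c (tv u φ)
    rw [pow_one, pow_two, ← mul_left_inj (tv u φ), mul_assoc, ← this, tv_inv, ← mul_assoc (tv u φ) (tv u φ),
      tv_sq, one_mul, one_mul, mul_assoc, tv_sq, mul_one]
  have ne1 : ∀ {u φ}, ψ (tv u φ) ≠ 1 ↔ tv u φ ≠ 1 := fun {u φ} => not_congr
    ⟨fun e => (inj (e.trans (by rw [tv_zero u, map_one]))).trans (tv_zero u), fun e => by rw [e, map_one]⟩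
  have rig : ∀ {u u'}, I (pt ψ u) (pt ψ u') → ∃ a : F, a ≠ 0 ∧ u = a • u' := by
    rintro u u' ⟨_, ⟨φ, h, rfl⟩, ⟨φ', h', e⟩, n⟩
    exact tv_rigid h h' (inj e.symm) (ne1.1 n)
  have mem : ∀ {u φ x}, x ∈ pt ψ u → x ∈ pt (du ψ) φ → x ≠ 1 →
      φ ⬝ᵥ u = 0 ∧ ∃ a : F, ψ (tv (a • u) φ) = x := by
    rintro u φ _ ⟨χ, h, rfl⟩ ⟨v, h', e⟩ n
    rw [du_tv] at e
    rw [dotProduct_comm] at h'
    obtain ⟨a, ha, rfl⟩ := tv_rigid h' h (inj e) (ne1.1 (e ▸ n))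
    exact ⟨by simpa [ha] using h', a, e⟩
  have mem' : ∀ {u φ} (a : F), φ ⬝ᵥ u = 0 → ψ (tv (a • u) φ) ∈ pt ψ u ⊓ pt (du ψ) φ := fun {u φ} a h =>
    ⟨⟨a • φ, by simp [h], by rw [tv_smul a h]⟩, a • u, by simp [dotProduct_comm u, h], du_tv ψ _ _⟩
  have inc : ∀ {u φ}, u ≠ 0 → φ ≠ 0 → (I (pt ψ u) (pt (du ψ) φ) ↔ φ ⬝ᵥ u = 0) := fun hu hφ =>
    ⟨fun ⟨_, a, b, c⟩ => (mem a b c).1, fun h => ⟨_, (mem' 1 h).1, (mem' 1 h).2, ne1.2 fun e => by
      simp [tv_eq_one, h, hu, hφ] at e⟩⟩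
  have nz : ∀ (g : SL3) {u}, u ≠ 0 → g.1 *ᵥ u ≠ 0 := fun g u hu e =>
    hu (by rw [← inv_mulVec_mulVec g u, e, mulVec_zero])
  have card : ∀ {u}, u ≠ 0 → Nat.card (pt ψ u) = Nat.card F * Nat.card F := fun {u} hu => by
    obtain ⟨θ, hθ⟩ := exists_dot0 hu
    have e := card_ker ![u] fun c => ⟨c 0 • θ, fun i => by fin_cases i; simp [hθ]⟩
    rw [Fintype.card_fin, pow_one, pow_succ, pow_two] at e
    rw [← Nat.eq_of_mul_eq_mul_right Nat.card_pos e]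
    exact (Nat.card_congr (Equiv.ofBijective (fun x : {x : Fin 3 → F // ∀ i, x ⬝ᵥ ![u] i = 0} =>
      (⟨ψ (tv u x.1), x.1, x.2 0, rfl⟩ : pt ψ u))
      ⟨fun x y e => Subtype.ext (tv_inj hu (x.2 0) (y.2 0) (inj (congrArg Subtype.val e))),
        fun ⟨_, φ, h, e⟩ => ⟨⟨φ, fun i => by fin_cases i; exact h⟩, Subtype.ext e⟩⟩)).symm
  constructor
  · rintro _ ⟨u, -, rfl⟩ _ ⟨φ, -, rfl⟩; exact ⟨_, rfl⟩
  · rintro _ ⟨u, -, rfl⟩ _ ⟨φ, -, rfl⟩; rw [← map_mul, tv_sq, map_one]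
  · rintro _ ⟨u, hu, rfl⟩; exact card hu
  · rintro _ ⟨u, hu, rfl⟩ _ ⟨g, rfl⟩; exact ⟨_, nz g hu, (cj_pt ψ g u).symm⟩
  · rintro _ ⟨u, hu, rfl⟩ _ ⟨v, hv, rfl⟩
    by_cases h : ∀ a : F, u ≠ a • (v + u)
    · obtain ⟨θ, a, b⟩ := exists_dot1 h
      exact ⟨_, ⟨tv (v + u) θ, rfl⟩, by
        rw [cj_pt, tv_mulVec b, a, one_smul, add_comm, add_assoc, vadd_self, add_zero]⟩
    push Not at h
    obtain ⟨a, e⟩ := h
    have ha : a ≠ 0 := fun h => hu (by rw [e, h, zero_smul])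
    have e' : v = (a⁻¹ - 1) • u := by
      rw [sub_smul, one_smul, eq_sub_iff_add_eq, eq_inv_smul_iff₀ ha, ← e]
    exact ⟨1, one_mem _, by rw [cj_one, e', pt_smul _ fun h => hv (by rw [e', h, zero_smul])]⟩
  · rintro _ ⟨u, -, rfl⟩ _ ⟨v, -, rfl⟩ i
    obtain ⟨a, ha, rfl⟩ := rig i
    exact pt_smul ψ ha v
  · rintro _ ⟨g, rfl⟩ h2 h1
    obtain ⟨a, ha⟩ := mem_center_iff'.1 ((hk (g * g)).1 (by rw [map_mul, h2]))
    have a3 : a ^ 3 = 1 := by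
      have := (g * g).2
      rwa [show (g * g).1 = a • 1 from mext fun x => by rw [ha, smul_mulVec, one_mulVec], det_smul,
        det_one, mul_one] at this
    obtain ⟨u, φ, h, e⟩ := inv_tv (g := g ^ 3) (slext fun x => by
      rw [show g ^ 3 * g ^ 3 = (g * g) ^ 3 by simp [pow_succ, mul_assoc], pow_mulVec (ha x), a3]; simp)
    have e' : ψ (tv u φ) = ψ g := by rw [← e, map_pow, pow_succ, pow_two, h2, one_mul]
    exact ⟨_, ⟨u, fun h => h1 (by rw [← e', h, zero_tv, map_one]), rfl⟩, φ, h, e'⟩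
  · rintro _ ⟨u, hu, rfl⟩ _ ⟨φ, hφ, rfl⟩ i
    have h := (inc hu hφ).1 i
    refine (Nat.card_congr (Equiv.ofBijective (fun a : F =>
      (⟨_, mem' a h⟩ : ↥(pt ψ u ⊓ pt (du ψ) φ))) ⟨fun a b e =>
      smul_left_injective F hu (tv_inj' hφ (by simp [h]) (by simp [h]) (inj (congrArg Subtype.val e))),
      fun ⟨x, hx⟩ => ?_⟩)).symm
    by_cases x1 : x = 1
    · exact ⟨0, Subtype.ext (by simp [zero_tv, x1])⟩
    · exact (mem hx.1 hx.2 x1).2.imp fun a e => Subtype.ext e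
  · rintro _ ⟨u, hu, rfl⟩ _ ⟨v, hv, rfl⟩
    obtain ⟨φ, a, b⟩ := exists_ker_notMem (a := 2) (b := 0) (by simp) ![u, v] ![]
    have hφ : φ ≠ 0 := fun e => b (e ▸ zero_mem _)
    exact ⟨_, ⟨φ, hφ, rfl⟩, (inc hu hφ).2 ((dotProduct_comm _ _).trans (a 0)),
      (inc hv hφ).2 ((dotProduct_comm _ _).trans (a 1))⟩
  · rintro _ ⟨u, hu, rfl⟩ _ ⟨v, hv, rfl⟩ _ ⟨φ, hφ, rfl⟩ _ ⟨χ, hχ, rfl⟩ n a b c d
    obtain ⟨s, rfl⟩ := dim3 hu (u' := v) (fun s e => n (by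
      rw [e, pt_smul _ fun h => hv (by rw [e, h, zero_smul])])) hφ ((inc hu hφ).1 a) ((inc hv hφ).1 b)
      ((inc hu hχ).1 c) ((inc hv hχ).1 d)
    exact (pt_smul _ (left_ne_zero_of_smul hχ) _).symm
  · rintro _ ⟨u, hu, rfl⟩ _ ⟨v, hv, rfl⟩ _ ⟨φ, hφ, rfl⟩ x a b c
    obtain ⟨h, s, rfl⟩ := mem a b c
    have h' : φ ⬝ᵥ s • u = 0 := by simp [h]
    rw [inc hv hφ, ← cj_eq_iff, cj_pt]
    refine ⟨fun e => by_contra fun n => ?_, fun e => by rw [tv_mulVec h', e, zero_smul, add_zero]⟩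
    obtain ⟨θ, a, b⟩ := exists_ker_notMem (a := 1) (b := 0) (by simp) ![v] ![]
    have m : ψ (tv v θ) ∈ pt ψ v := ⟨θ, (dotProduct_comm _ _).trans (a 0), rfl⟩
    obtain ⟨t, -, e'⟩ := rig ⟨_, e.ge m, m, ne1.2 fun e =>
      ((tv_eq_one ((dotProduct_comm _ _).trans (a 0))).1 e).elim hv fun e => b (e ▸ zero_mem _)⟩
    have e1 := congrArg (φ ⬝ᵥ ·) e'
    simp only [tv_mulVec h', dotProduct_add, dotProduct_smul, h, smul_eq_mul, mul_zero,
      add_zero] at e1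
    rw [tv_mulVec h', (mul_eq_right₀ n).1 e1.symm, one_smul, add_eq_left, smul_eq_zero] at e'
    exact c (by rw [e'.resolve_left n, zero_tv, map_one])

theorem exists_pl [Finite G] {N : Subgroup G} {n : ℕ} (hn : 1 ≤ n) {F : Type} [Field F] [Fintype F]
    (hF : Fintype.card F = 2 ^ n) (e : N ≃* ProjectiveSpecialLinearGroup (Fin 3) F) :
    ∃ P L, Pl N (2 ^ n) P L := by
  have : CharP F 2 := charP_of_card_eq_prime_pow hF
  let ψ := N.subtype.comp (e.symm.toMonoidHom.comp (QuotientGroup.mk' (center _)))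
  have hk : ∀ g, ψ g = 1 ↔ g ∈ center _ := fun g => by
    simp [ψ, QuotientGroup.eq_one_iff]
  have hr : ψ.range = N := by
    refine le_antisymm (by rintro _ ⟨g, rfl⟩; exact Subtype.coe_prop _) fun x hx => ?_
    obtain ⟨g, hg⟩ := QuotientGroup.mk'_surjective _ (e ⟨x, hx⟩)
    exact ⟨g, by simp only [ψ, MonoidHom.comp_apply, hg]; simp⟩
  have hr' : (du ψ).range = N := by
    rw [← hr, du, MonoidHom.range_comp, MonoidHom.range_eq_top.2 tr.surjective, ← MonoidHom.range_eq_map]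
  have c : Nat.card F = 2 ^ n := Nat.card_eq_fintype_card.trans hF
  have h1 := half ψ hk
  have h2 := half (du ψ) fun g => (hk _).trans (MulEquivClass.apply_mem_center_iff tr)
  rw [du_du, hr', c] at h2
  rw [hr, c] at h1
  have := Class.PSL_isSimpleGroup (ι := Fin 3) (F := F) (by simp)
  have := e.isSimpleGroup
  refine ⟨_, _, h1, h2, ⟨n, hn, rfl⟩, ⟨_, Pi.single 0 1, by simp, rfl⟩, ?_, fun H h hH => ?_⟩
  · have a := Class.gcd_mul_card_PSL (ι := Fin 3) (F := F)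
    have b := Class.card_units_mul_card_SL (ι := Fin 3) (R := F)
    rw [card_GL_field, Nat.card_units, ← a, c, hF, Fin.prod_univ_three, Fintype.card_fin,
      ← Nat.card_congr e.toEquiv] at b
    have q2 : 2 ≤ 2 ^ n := Nat.le_self_pow (by omega) 2
    generalize 2 ^ n = q at *
    obtain ⟨r, rfl⟩ := Nat.exists_eq_add_of_le' (show 1 ≤ q by omega)
    refine Nat.eq_of_mul_eq_mul_left (show 0 < r + 1 - 1 by omega) (by
      rw [mul_comm (Nat.card N), b]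
      simp only [Fin.val_zero, Fin.val_one, Fin.val_two, pow_zero, pow_one, Nat.add_sub_cancel]
      rw [show (r + 1) ^ 3 - (r + 1) = (r + 1) * ((r + 1) ^ 2 - 1) by rw [Nat.mul_sub]; congr 1 <;> ring,
        show (r + 1) ^ 3 - (r + 1) ^ 2 = (r + 1) ^ 2 * r by rw [pow_succ, mul_add, mul_one]; simp]
      ring)
  · exact (normal_subgroupOf' hH).eq_bot_or_eq_top.imp
      (fun e => by rw [← map_subgroupOf_of_le h, e, Subgroup.map_bot])
      fun e => le_antisymm h (subgroupOf_eq_top.1 e)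

end Cfsg.Agent.PL3
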